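import Cfsg.Agent.H385.RC.Ev

/-!
# S3510, `Sp₄(q)`, `q ≥ 4` even: covers containing an involution of the linear group (helper547)
-/

set_option autoImplicit false
set_option linter.unusedVariables false

namespace Cfsg.Agent.H547.RC

open Cfsg Cfsg.Agent.H106.RC Cfsg.Agent.H385.RC Cfsg.Agent.H380.RC Module

section abs

/-- a commutator `[U, x]` is contained in `[U, y]` -/
theorem common {G : Type*} [Group G] {U : Subgroup G} [Finite U] (hab : ∀ u ∈ U, ∀ v ∈ U, u * v = v * u) {x y : G} {r : ℕ}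
    (hx : x ^ r = 1) (hr : r.Coprime (Nat.card U)) (hxy : x * y = y * x) (hUx : ∀ u ∈ U, x * u * x⁻¹ ∈ U)
    (hUy : ∀ u ∈ U, y * u * y⁻¹ ∈ U) (hC : ∀ u ∈ U, u * y = y * u → u * x = x * u) {u0 : G} (hu0 : u0 ∈ U) :
    u0 * x * u0⁻¹ * x⁻¹ ∈ cmm U y := by
  classical
  have key : ∀ (z : G), (∀ u ∈ U, z * u * z⁻¹ ∈ U) → ∀ u ∈ U, u * z * u⁻¹ * z⁻¹ ∈ U := by
    intro z hz u hu
    have h1 : u * z * u⁻¹ * z⁻¹ = u * (z * u⁻¹ * z⁻¹) := by group
    rw [h1]
    exact U.mul_mem hu (hz _ (U.inv_mem hu))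
  have hmul : ∀ (z : G), (∀ u ∈ U, z * u * z⁻¹ ∈ U) → ∀ u ∈ U, ∀ v ∈ U,
      (u * v) * z * (u * v)⁻¹ * z⁻¹ = (u * z * u⁻¹ * z⁻¹) * (v * z * v⁻¹ * z⁻¹) := by
    intro z hz u hu v hv
    have h1 : (u * v) * z * (u * v)⁻¹ * z⁻¹ = u * (v * z * v⁻¹ * z⁻¹) * (z * u⁻¹ * z⁻¹) := by group
    have h2 : (u * z * u⁻¹ * z⁻¹) * (v * z * v⁻¹ * z⁻¹) = u * ((z * u⁻¹ * z⁻¹) * (v * z * v⁻¹ * z⁻¹)) := by group
    rw [h1, h2, mul_assoc, hab _ (key z hz v hv) _ (hz _ (U.inv_mem hu))]
  let φ : U →* U :=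
    { toFun := fun u => ⟨u * x * (u : G)⁻¹ * x⁻¹, key x hUx u u.2⟩
      map_one' := Subtype.ext (by simp)
      map_mul' := fun u v => Subtype.ext (hmul x hUx u u.2 v v.2) }
  let ψ : U →* U :=
    { toFun := fun u => ⟨u * y * (u : G)⁻¹ * y⁻¹, key y hUy u u.2⟩
      map_one' := Subtype.ext (by simp)
      map_mul' := fun u v => Subtype.ext (hmul y hUy u u.2 v v.2) }
  have hφψ : ∀ u : U, ψ (φ u) = φ (ψ u) := by
    intro u
    apply Subtype.ext
    show (u * x * (u : G)⁻¹ * x⁻¹) * y * (u * x * (u : G)⁻¹ * x⁻¹)⁻¹ * y⁻¹ =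
      (u * y * (u : G)⁻¹ * y⁻¹) * x * (u * y * (u : G)⁻¹ * y⁻¹)⁻¹ * x⁻¹
    have hu : (u : G) ∈ U := u.2
    have e1 : (u * x * (u : G)⁻¹ * x⁻¹) * y * (u * x * (u : G)⁻¹ * x⁻¹)⁻¹ * y⁻¹ =
      u * (x * (u : G)⁻¹ * x⁻¹) * ((y * x) * u * (y * x)⁻¹ * (y * (u : G)⁻¹ * y⁻¹)) := by group
    have e2 : (u * y * (u : G)⁻¹ * y⁻¹) * x * (u * y * (u : G)⁻¹ * y⁻¹)⁻¹ * x⁻¹ =
      u * (y * (u : G)⁻¹ * y⁻¹) * ((x * y) * u * (x * y)⁻¹ * (x * (u : G)⁻¹ * x⁻¹)) := by group
    rw [e1, e2, hxy]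
    have m1 : x * (u : G)⁻¹ * x⁻¹ ∈ U := hUx _ (U.inv_mem hu)
    have m2 : y * (u : G)⁻¹ * y⁻¹ ∈ U := hUy _ (U.inv_mem hu)
    have m3 : (y * x) * u * (y * x)⁻¹ ∈ U := by
      have : (y * x) * u * (y * x)⁻¹ = y * (x * u * x⁻¹) * y⁻¹ := by group
      rw [this]; exact hUy _ (hUx _ hu)
    generalize x * (u : G)⁻¹ * x⁻¹ = a at m1 ⊢
    generalize y * (u : G)⁻¹ * y⁻¹ = b at m2 ⊢
    generalize (y * x) * u * (y * x)⁻¹ = c at m3 ⊢
    rw [hab _ m3 _ m2, hab _ m3 _ m1, mul_assoc, mul_assoc, ← mul_assoc a, ← mul_assoc b, hab _ m1 _ m2]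
  -- `ψ` is injective on the range of `φ`
  have hpow : ∀ (u : U), x * ((φ u : U) : G) * x⁻¹ = φ u → ∀ k : ℕ, x ^ k * u * (x ^ k)⁻¹ = ((φ u : U) : G)⁻¹ ^ k * u := by
    intro u hw k
    have hφu : ((φ u : U) : G) = u * x * (u : G)⁻¹ * x⁻¹ := rfl
    have h1 : x * u * x⁻¹ = ((φ u : U) : G)⁻¹ * u := by rw [hφu]; group
    have h2 : x * ((φ u : U) : G)⁻¹ * x⁻¹ = ((φ u : U) : G)⁻¹ := by
      have : x * ((φ u : U) : G)⁻¹ * x⁻¹ = (x * ((φ u : U) : G) * x⁻¹)⁻¹ := by group
      rw [this, hw]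
    induction k with
    | zero => simp
    | succ k ih =>
      have h3 : x ^ (k + 1) * u * (x ^ (k + 1))⁻¹ = x * (x ^ k * u * (x ^ k)⁻¹) * x⁻¹ := by
        rw [pow_succ']; group
      have h4 : x * (((φ u : U) : G)⁻¹ ^ k * u) * x⁻¹ = (x * ((φ u : U) : G)⁻¹ * x⁻¹) ^ k * (x * u * x⁻¹) := by
        rw [conj_pow]; group
      rw [h3, ih, h4, h2, h1, pow_succ, mul_assoc]
  have hinj : ∀ u : U, ψ (φ u) = 1 → φ u = 1 := by
    intro u hu
    have h1 : ((φ u : U) : G) * y * ((φ u : U) : G)⁻¹ * y⁻¹ = 1 := congrArg Subtype.val hu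
    have h2 : ((φ u : U) : G) * y = y * ((φ u : U) : G) := by
      rw [mul_inv_eq_one, mul_inv_eq_iff_eq_mul] at h1
      exact h1
    have h3 := hC _ (φ u).2 h2
    have h4 : x * ((φ u : U) : G) * x⁻¹ = φ u := by rw [← h3, mul_inv_cancel_right]
    have h5 := hpow u h4 r
    rw [hx, one_mul, inv_one, mul_one] at h5
    have h6 : ((φ u : U) : G)⁻¹ ^ r = 1 := (mul_eq_right.1 h5.symm)
    rw [inv_pow, inv_eq_one] at h6
    have h7 : (φ u) ^ r = 1 := Subtype.ext h6
    have h8 : orderOf (φ u) = 1 := by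
      have h9 := orderOf_dvd_of_pow_eq_one h7
      have h10 : orderOf (φ u) ∣ Nat.card U := orderOf_dvd_natCard _
      exact Nat.eq_one_of_dvd_coprimes hr h9 h10
    exact orderOf_eq_one_iff.1 h8
  let ρ : φ.range → φ.range := fun w => ⟨ψ w, by
    obtain ⟨_, ⟨u, rfl⟩⟩ := w
    exact ⟨ψ u, (hφψ u).symm⟩⟩
  have hρ : Function.Injective ρ := by
    rintro ⟨_, ⟨u, rfl⟩⟩ ⟨_, ⟨v, rfl⟩⟩ huv
    have h1 : ψ (φ u) = ψ (φ v) := congrArg Subtype.val huv
    apply Subtype.ext
    show φ u = φ v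
    have h2 : ψ (φ (u * v⁻¹)) = 1 := by rw [map_mul, map_mul, map_inv, map_inv, h1, mul_inv_cancel]
    have h3 := hinj _ h2
    rw [map_mul, map_inv, mul_inv_eq_one] at h3
    exact h3
  obtain ⟨⟨w, hw⟩, hww⟩ := (Finite.injective_iff_surjective.1 hρ) ⟨φ ⟨u0, hu0⟩, ⟨_, rfl⟩⟩
  have h1 : ψ w = φ ⟨u0, hu0⟩ := congrArg Subtype.val hww
  have h2 : (w : G) * y * (w : G)⁻¹ * y⁻¹ = u0 * x * u0⁻¹ * x⁻¹ := congrArg Subtype.val h1
  rw [← h2]
  exact mem_cmm w.2

/-- groups of exponent two -/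
theorem coprime_of_sq {G : Type*} [Group G] {U : Subgroup G} [Finite U] (h : ∀ u ∈ U, u * u = 1) {r : ℕ} (hr : r.Prime)
    (h2 : r ≠ 2) : r.Coprime (Nat.card U) := by
  rw [hr.coprime_iff_not_dvd]
  intro hd
  have := Fact.mk hr
  obtain ⟨u, hu⟩ := exists_prime_orderOf_dvd_card' (G := U) r hd
  have h1 : u ^ 2 = 1 := by rw [pow_two]; exact Subtype.ext (h u u.2)
  have h3 := orderOf_dvd_of_pow_eq_one h1
  rw [hu] at h3
  exact h2 ((Nat.prime_dvd_prime_iff_eq hr Nat.prime_two).1 h3)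

variable {G Ω ι : Type*} [Group G] [MulAction G Ω] {N : Subgroup G}

/-- **The combined rule**: `U` of exponent two contains the involution `x i0` and is normalised by the other members of the
cover; `t ∈ [U, x j0]` -/
theorem two_rule [Finite ι] [Nonempty Ω] (hE : Env G Ω N) {x : ι → G} {r : ι → ℕ} (hx : PF x r) (hcov : Cov Ω x) {i0 : ι}
    (hi : r i0 = 2) {U : Subgroup G} [Finite U] (hU2 : ∀ u ∈ U, u * u = 1) (hxU : x i0 ∈ U)
    (hU : ∀ i, ∀ u ∈ U, x i * u * (x i)⁻¹ ∈ U)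
    (hC : ∀ i j, i ≠ i0 → j ≠ i0 → ∀ u ∈ U, u * x i = x i * u → u * x j = x j * u) {j0 : ι} (hj0 : j0 ≠ i0) {u0 : G}
    (hu0 : u0 ∈ U) (hfin : x i0 ∈ cmm (N ⊓ Subgroup.centralizer {x i0}) (u0 * x j0 * u0⁻¹ * (x j0)⁻¹)) : False := by
  have hab : ∀ u ∈ U, ∀ v ∈ U, u * v = v * u := by
    intro u hu v hv
    have h1 := hU2 _ (U.mul_mem hu hv)
    have h2 := hU2 _ hu
    have h3 := hU2 _ hv
    calc u * v = u * (v * ((u * v) * (u * v))) * (v * v)⁻¹ * (u * u)⁻¹ * ((u * u) * (v * v)) := by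
          rw [h1, h2, h3]; simp
      _ = v * u := by
          rw [h1, h2, h3]
          have h4 : u⁻¹ = u := inv_eq_of_mul_eq_one_left h2
          have h5 : v⁻¹ = v := inv_eq_of_mul_eq_one_left h3
          have h6 : (u * v)⁻¹ = u * v := inv_eq_of_mul_eq_one_left h1
          rw [mul_inv_rev, h4, h5] at h6
          simp [h6]
  have hodd : ∀ j, j ≠ i0 → r j ≠ 2 := fun j hj h => hj (hx.inj (h.trans hi.symm))
  refine not_cov_one hE (x := u0 * x j0 * u0⁻¹ * (x j0)⁻¹) (y := x i0) (U := N ⊓ Subgroup.centralizer {x i0})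
    (fun ω => ?_) (fun u hu => (Subgroup.mem_centralizer_singleton_iff.1 hu.2)) (hx.ne i0) hfin
  by_cases hω : x i0 • ω = ω
  · exact Or.inl hω
  right
  have h1 : ∃ j : {j // j ≠ i0}, ∀ u ∈ U, x j.1 • u • ω = u • ω := by
    refine cover_loc (x := fun j : {j // j ≠ i0} => x j.1) (r := fun j => r j.1) (fun j => hx.prime _)
      (fun j => hx.pow _) (fun i j => hx.comm _ _) (fun u hu => ?_) (fun j u hu => hU _ u hu)
      (Or.inl ⟨hab, fun i j h1 _ => absurd (coprime_of_sq hU2 (hx.prime i.1) (hodd _ i.2)) h1⟩)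
    obtain ⟨j, hj⟩ := hcov (u • ω)
    refine ⟨⟨j, fun h => hω ?_⟩, hj⟩
    subst h
    rw [← mul_smul, hab _ hxU _ hu, mul_smul] at hj
    exact MulAction.injective u hj
  obtain ⟨⟨j, hj⟩, hjU⟩ := h1
  exact comm_le hjU (common hab (hx.pow j0) (coprime_of_sq hU2 (hx.prime _) (hodd _ hj0)) (hx.comm j0 j) (hU _) (hU _)
    (fun u hu h2 => hC j j0 hj hj0 u hu h2) hu0)

end abs

section geo

variable {F V G : Type*} [Field F] [AddCommGroup V] [Module F V] [Group G] [DistribMulAction G V]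
  {B : LinearMap.BilinForm F V} {N : Subgroup G}

/-- adjointness for involutions -/
theorem adj (h : Ev B N) {g : G} (hg : g ∈ N) (h2 : g * g = 1) (v w : V) : B (g • v + v) w = B v (g • w + w) := by
  have h3 : B (g • v) w = B v (g • w) := by
    rw [← h.isom hg (g • v) w, ← mul_smul, h2, one_smul]
  rw [map_add, LinearMap.add_apply, map_add, h3]

theorem fix_inter (h : Ev B N) {x : G} {r : ℕ} (hx : x ^ r = 1) (hr : r % 2 = 1) {y z : V} (hz : z = x • y + y)
    (hxz : x • z = z) : z = 0 := by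
  have h1 : x • y = y + z := by
    rw [hz, add_comm (x • y) y, ← add_assoc, h.vadd_self, zero_add]
  have h2 : ∀ k : ℕ, x ^ k • y = y + k • z := by
    intro k
    induction k with
    | zero => simp
    | succ k ih =>
      rw [pow_succ', mul_smul, ih, smul_add, h1, smul_comm, hxz, succ_nsmul, add_assoc, add_comm z]
  have h3 := h2 r
  rw [hx, one_smul] at h3
  have h4 : r • z = 0 := by
    have : y + 0 = y + r • z := by rw [add_zero]; exact h3
    exact (add_left_cancel this).symm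
  obtain ⟨m, hm⟩ : ∃ m, r = 2 * m + 1 := ⟨r / 2, by omega⟩
  rw [hm, succ_nsmul, mul_comm, mul_smul, two_nsmul, h.vadd_self, smul_zero, zero_add] at h4
  exact h4

/-- `v ↦ g v + v` -/
def nu (h : Ev B N) {g : G} (hg : g ∈ N) : V →ₗ[F] V := (h.le hg).toLinearMap + LinearMap.id

theorem nu_apply (h : Ev B N) {g : G} (hg : g ∈ N) (v : V) : nu h hg v = g • v + v := rfl

theorem mem_ker_nu (h : Ev B N) {g : G} (hg : g ∈ N) {v : V} : v ∈ LinearMap.ker (nu h hg) ↔ g • v = v := by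
  rw [LinearMap.mem_ker, nu_apply]
  constructor
  · intro h1
    have h2 := eq_neg_of_add_eq_zero_left h1
    rwa [h.vneg] at h2
  · intro h1
    rw [h1, h.vadd_self]

theorem orth (h : Ev B N) {x : G} (hx : x ∈ N) {c : V} (hc : x • c = c) (y : V) : B c (x • y + y) = 0 := by
  rw [map_add, ← h.isom hx c y, hc, h.add_self]

/-- decomposition for elements of odd order -/
theorem nondeg_CD [FiniteDimensional F V] (h : Ev B N) {x : G} (hx : x ∈ N) {r : ℕ} (hxr : x ^ r = 1) (hr : r % 2 = 1)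
    {z : V} (h1 : ∀ c : V, x • c = c → B z c = 0) (h2 : ∀ y : V, B z (x • y + y) = 0) : z = 0 := by
  have hd : Disjoint (LinearMap.range (nu h hx)) (LinearMap.ker (nu h hx)) := by
    rw [Submodule.disjoint_def]
    rintro w ⟨y, hy⟩ hw
    rw [mem_ker_nu] at hw
    rw [nu_apply] at hy
    exact fix_inter h hxr hr hy.symm hw
  have ht := Submodule.eq_top_of_disjoint _ _ (LinearMap.finrank_range_add_finrank_ker (nu h hx)).ge hd
  apply h.nd
  intro v
  have hv : v ∈ LinearMap.range (nu h hx) ⊔ LinearMap.ker (nu h hx) := by rw [ht]; trivial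
  obtain ⟨_, ⟨y, rfl⟩, c, hc, rfl⟩ := Submodule.mem_sup.1 hv
  rw [map_add, nu_apply, h2, h1 c ((mem_ker_nu h hx).1 hc), add_zero]

theorem range_ne (h : Ev B N) [FiniteDimensional F V] {x : G} (hx : x ∈ N) {r : ℕ} (hxr : x ^ r = 1) (hr : r % 2 = 1)
    (hx1 : x ≠ 1) : 2 ≤ finrank F (LinearMap.range (nu h hx)) := by
  by_contra hcon
  have h1 : finrank F (LinearMap.range (nu h hx)) = 0 ∨ finrank F (LinearMap.range (nu h hx)) = 1 := by omega
  rcases h1 with h1 | h1
  · rw [Submodule.finrank_eq_zero] at h1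
    apply hx1
    apply h.inj
    intro v
    have h2 : nu h hx v ∈ LinearMap.range (nu h hx) := ⟨v, rfl⟩
    rw [h1, Submodule.mem_bot] at h2
    exact (mem_ker_nu h hx).1 (LinearMap.mem_ker.2 h2)
  · obtain ⟨⟨d, hd⟩, hd0, hd1⟩ := finrank_eq_one_iff'.1 h1
    apply hd0
    apply Subtype.ext
    show d = 0
    obtain ⟨y, hy⟩ := hd
    refine nondeg_CD h hx hxr hr (fun c hc => ?_) fun y' => ?_
    · rw [h.symm, ← hy, nu_apply]
      exact orth h hx hc y
    · obtain ⟨c, hc⟩ := hd1 ⟨x • y' + y', ⟨y', rfl⟩⟩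
      have h2 : c • d = x • y' + y' := congrArg Subtype.val hc
      rw [← h2, map_smul, h.self, smul_zero]

theorem ker_ne (h : Ev B N) [FiniteDimensional F V] {x : G} (hx : x ∈ N) {r : ℕ} (hxr : x ^ r = 1) (hr : r % 2 = 1) :
    finrank F (LinearMap.ker (nu h hx)) ≠ 1 := by
  intro h1
  obtain ⟨⟨d, hd⟩, hd0, hd1⟩ := finrank_eq_one_iff'.1 h1
  apply hd0
  apply Subtype.ext
  show d = 0
  have hd' := (mem_ker_nu h hx).1 hd
  refine nondeg_CD h hx hxr hr (fun c hc => ?_) fun y' => orth h hx hd' y'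
  obtain ⟨a, ha⟩ := hd1 ⟨c, (mem_ker_nu h hx).2 hc⟩
  have h2 : a • d = c := congrArg Subtype.val ha
  rw [← h2, map_smul, h.self, smul_zero]

theorem span_pair {W : Submodule F V} (h2 : finrank F W = 2) {w1 w3 : V} (m1 : w1 ∈ W) (m3 : w3 ∈ W)
    (hli : ∀ a b : F, a • w1 + b • w3 = 0 → a = 0 ∧ b = 0) {w : V} (hw : w ∈ W) : ∃ a b : F, a • w1 + b • w3 = w := by
  have hli' : LinearIndependent F ![w1, w3] := LinearIndependent.pair_iff.2 hli
  have hfd : FiniteDimensional F W := FiniteDimensional.of_finrank_pos (by rw [h2]; norm_num)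
  have h3 : Submodule.span F {w1, w3} = W := by
    have h4 : finrank F (Submodule.span F (Set.range ![w1, w3])) = 2 := by
      rw [finrank_span_eq_card hli', Fintype.card_fin]
    have h5 : Set.range ![w1, w3] = {w1, w3} := by
      simp [Matrix.range_cons, Matrix.range_empty, Set.pair_comm]
    rw [h5] at h4
    refine Submodule.eq_of_le_of_finrank_eq ?_ (h4.trans h2.symm)
    rw [Submodule.span_le]
    rintro z (rfl | rfl)
    · exact m1
    · exact m3
  rw [← h3, Submodule.mem_span_pair] at hw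
  exact hw

/-- planes -/
theorem plane (h : Ev B N) {W : Submodule F V} (h2 : finrank F W = 2) (hnd : ∀ w ∈ W, (∀ w' ∈ W, B w w' = 0) → w = 0)
    {w1 w2 : V} (m1 : w1 ∈ W) (m2 : w2 ∈ W) (h0 : w1 ≠ 0) (h12 : B w1 w2 = 0) : ∃ c : F, w2 = c • w1 := by
  have h3 : ∃ w3 ∈ W, B w1 w3 ≠ 0 := by
    by_contra hcon
    push Not at hcon
    exact h0 (hnd w1 m1 hcon)
  obtain ⟨w3, m3, h13⟩ := h3
  obtain ⟨a, b, hab⟩ := span_pair h2 m1 m3 (fun a b hab => by
    have h4 := congrArg (B w1) hab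
    rw [map_add, map_smul, map_smul, h.self, smul_zero, zero_add, smul_eq_mul, map_zero] at h4
    have hb : b = 0 := (mul_eq_zero.1 h4).resolve_right h13
    rw [hb, zero_smul, add_zero] at hab
    exact ⟨(smul_eq_zero.1 hab).resolve_right h0, hb⟩) m2
  refine ⟨a, ?_⟩
  rw [← hab, map_add, map_smul, map_smul, h.self, smul_zero, zero_add, smul_eq_mul] at h12
  have hb : b = 0 := (mul_eq_zero.1 h12).resolve_right h13
  rw [← hab, hb, zero_smul, add_zero]

/-- the additive function `B z (g z + z)` vanishes on commutators -/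
theorem q_zero (h : Ev B N) {g x : G} (hg : g ∈ N) (h2 : g * g = 1) (hx : x ∈ N) (hgx : g * x = x * g) (y : V) :
    B (x • y + y) (g • (x • y + y) + (x • y + y)) = 0 := by
  have h3 : g • x • y = x • g • y := by rw [← mul_smul, hgx, mul_smul]
  have h4 : g • (x • y + y) + (x • y + y) = x • (g • y + y) + (g • y + y) := by
    rw [smul_add, h3, smul_add]; abel
  have h5 : B y (x • (g • y + y)) = B (x • y) (g • y + y) := by
    have h6 : x • (g • y + y) = g • (x • y) + x • y := by rw [smul_add, h3]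
    rw [h6, ← adj h hg h2, h.symm]
  have h8 : B (x • y) (x • (g • y + y)) = B y (g • y + y) := h.isom hx _ _
  rw [h4]
  generalize g • y + y = m at h5 h8 ⊢
  generalize x • y = z at h5 h8 ⊢
  generalize x • m = n at h5 h8 ⊢
  rw [map_add B, LinearMap.add_apply, map_add, map_add, h8, h5]
  have h6 := h.add_self (B y m)
  have h7 := h.add_self (B z m)
  linear_combination h6 + h7

/-- the element `(w, c)` of the unipotent radical of the stabiliser of `e` -/
def IsQ (B : LinearMap.BilinForm F V) (e : V) (g : G) (w : V) (c : F) : Prop :=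
  ∀ z : V, g • z = z + B z e • w + (B z w + c * B z e) • e

theorem IsQ.mul (h : Ev B N) {e : V} {g g' : G} {w w' : V} {c c' : F} (hg : g ∈ N) (he : B e w = 0) (he' : B e w' = 0)
    (h1 : IsQ B e g w c) (h2 : IsQ B e g' w' c') : IsQ B e (g * g') (w + w') (c + c' + B w' w) := by
  intro z
  have h3 : g • e = e := by rw [h1, h.self, he]; simp
  have h4 : g • w' = w' + B w' w • e := by rw [h1, h.symm w' e, he']; simp
  rw [mul_smul, h2, smul_add, smul_add, h.lin hg, h.lin hg, h3, h4, h1, map_add]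
  module

theorem IsQ.sq (h : Ev B N) {e : V} {g : G} {w : V} {c : F} (hg : g ∈ N) (he : B e w = 0) (h1 : IsQ B e g w c) :
    g * g = 1 := by
  apply h.ext
  intro z
  rw [IsQ.mul h hg he he h1 h1 z, h.self, h.vadd_self, h.add_self, one_smul]
  simp

theorem IsQ.inv (h : Ev B N) {e : V} {g : G} {w : V} {c : F} (hg : g ∈ N) (he : B e w = 0) (h1 : IsQ B e g w c) :
    g⁻¹ = g := inv_eq_of_mul_eq_one_left (h1.sq h hg he)

theorem IsQ.conj (h : Ev B N) {e : V} {g x : G} {w : V} {c : F} (hx : x ∈ N) (hxe : x • e = e) (h1 : IsQ B e g w c) :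
    IsQ B e (x * g * x⁻¹) (x • w) c := by
  intro z
  have h2 : ∀ y : V, B (x⁻¹ • z) y = B z (x • y) := fun y => by rw [← h.isom hx, smul_inv_smul]
  rw [mul_smul, mul_smul, h1, smul_add, smul_add, h.lin hx, h.lin hx, smul_inv_smul, h2, h2, hxe]

/-- the subgroup of all `(w, c)` -/
def QS (h : Ev B N) (e : V) : Subgroup G where
  carrier := {g | g ∈ N ∧ ∃ w c, B e w = 0 ∧ IsQ B e g w c}
  one_mem' := ⟨N.one_mem, 0, 0, by simp, fun z => by simp⟩
  mul_mem' := by
    rintro g g' ⟨hg, w, c, he, h1⟩ ⟨hg', w', c', he', h1'⟩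
    exact ⟨N.mul_mem hg hg', w + w', c + c' + B w' w, by rw [map_add, he, he', add_zero], h1.mul h hg he he' h1'⟩
  inv_mem' := by
    rintro g ⟨hg, w, c, he, h1⟩
    exact ⟨N.inv_mem hg, w, c, he, by rw [h1.inv h hg he]; exact h1⟩

theorem mem_QS (h : Ev B N) {e : V} {g : G} : g ∈ QS h e ↔ g ∈ N ∧ ∃ w c, B e w = 0 ∧ IsQ B e g w c := Iff.rfl

theorem exists_dual (h : Ev B N) {e : V} (he : e ≠ 0) : ∃ w, B e w = 1 := by
  by_contra hcon
  push Not at hcon
  apply he
  apply h.nd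
  intro w
  by_contra hw
  apply hcon ((B e w)⁻¹ • w)
  rw [map_smul, smul_eq_mul, inv_mul_cancel₀ hw]

/-- involutions with one-dimensional commutator space -/
theorem type1 (h : Ev B N) [FiniteDimensional F V] {u : G} (hu : u ∈ N) (h2 : u * u = 1)
    (h1 : finrank F (LinearMap.range (nu h hu)) = 1) : ∃ (e : V) (c : F), e ≠ 0 ∧ c ≠ 0 ∧ IsQ B e u 0 c := by
  obtain ⟨⟨e, he⟩, he0, he1⟩ := finrank_eq_one_iff'.1 h1
  have he0' : e ≠ 0 := fun h3 => he0 (Subtype.ext h3)
  have h3 : ∀ z : V, ∃ a : F, a • e = u • z + z := fun z => by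
    obtain ⟨a, ha⟩ := he1 ⟨u • z + z, ⟨z, rfl⟩⟩
    exact ⟨a, congrArg Subtype.val ha⟩
  choose a ha using h3
  obtain ⟨w, hw⟩ := exists_dual h he0'
  have h5 : ∀ z, a z = a w * B z e := by
    intro z
    have h6 := adj h hu h2 z w
    rw [← ha, ← ha, map_smul, LinearMap.smul_apply, hw, map_smul, smul_eq_mul, smul_eq_mul, mul_one] at h6
    exact h6
  refine ⟨e, a w, he0', ?_, ?_⟩
  · intro h6
    obtain ⟨y, hy⟩ := he
    apply he0'
    rw [← hy, nu_apply, ← ha, h5, h6, zero_mul, zero_smul]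
  · intro z
    have h6 := ha z
    rw [h5] at h6
    rw [map_zero, smul_zero, add_zero, zero_add, h6]
    rw [add_comm (u • z) z, ← add_assoc, h.vadd_self, zero_add]

theorem exists_dual2 (h : Ev B N) {e v : V} (he : e ≠ 0) (hv : ∀ b : F, v ≠ b • e) : ∃ w, B v w = 1 ∧ B e w = 0 := by
  obtain ⟨z, hz⟩ := exists_dual h he
  have h1 : ∃ w, B e w = 0 ∧ B v w ≠ 0 := by
    by_contra hcon
    push Not at hcon
    apply hv (B v z)
    have h2 : v - B v z • e = 0 := by
      apply h.nd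
      intro y
      have h3 := hcon (y - B e y • z) (by rw [map_sub, map_smul, hz, smul_eq_mul, mul_one, sub_self])
      rw [map_sub, map_smul, smul_eq_mul] at h3
      rw [map_sub, LinearMap.sub_apply, map_smul, LinearMap.smul_apply, smul_eq_mul]
      linear_combination h3
    exact sub_eq_zero.1 h2
  obtain ⟨w, h2, h3⟩ := h1
  refine ⟨(B v w)⁻¹ • w, ?_, ?_⟩
  · rw [map_smul, smul_eq_mul, inv_mul_cancel₀ h3]
  · rw [map_smul, h2, smul_zero]

/-- an element commuting with a transvection fixes its centre -/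
theorem fix_centre (h : Ev B N) {u x : G} {e : V} {c : F} (he : e ≠ 0) (hc : c ≠ 0) (h1 : IsQ B e u 0 c) (hx : x ∈ N)
    (hxu : u * x = x * u) : x • e = e := by
  obtain ⟨w, hw⟩ := exists_dual h he
  rw [h.symm] at hw
  have h1' : ∀ z : V, u • z = z + (c * B z e) • e := fun z => by rw [h1 z]; simp
  -- evaluate at `x w`
  have h2 : u • x • w = x • u • w := by rw [← mul_smul, hxu, mul_smul]
  rw [h1' (x • w), h1' w, smul_add, h.lin hx, hw, mul_one] at h2
  have h3 : (c * B (x • w) e) • e = c • x • e := add_left_cancel h2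
  have h4 : x • e = B (x • w) e • e := by
    rw [mul_smul] at h3
    exact (smul_right_injective V hc h3).symm
  have h5 : B (x • w) (x • e) = 1 := by rw [h.isom hx, hw]
  rw [h4, map_smul, smul_eq_mul] at h5
  have h6 : (B (x • w) e + 1) * (B (x • w) e + 1) = 0 := by linear_combination h5 + (1 + B (x • w) e) * h.two
  have h7 : B (x • w) e + 1 = 0 := mul_self_eq_zero.1 h6
  have h8 : B (x • w) e = 1 := by linear_combination h7 - h.two
  rw [h4, h8, one_smul]

/-- elements of odd order act without fixed points on `e^⊥ / e` -/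
theorem fpf1 (h : Ev B N) [FiniteDimensional F V] (h4 : finrank F V = 4) {x : G} (hx : x ∈ N) {r : ℕ} (hxr : x ^ r = 1)
    (hr : r % 2 = 1) (hx1 : x ≠ 1) {e w : V} (he : e ≠ 0) (hxe : x • e = e) (hew : B e w = 0) {a : F}
    (ha : x • w + w = a • e) : ∃ b : F, w = b • e := by
  have h1 : a • e = 0 := fix_inter h hxr hr ha.symm (by rw [h.lin hx, hxe])
  rw [h1] at ha
  have h2 : w ∈ LinearMap.ker (nu h hx) := LinearMap.mem_ker.2 ha
  have h3 : e ∈ LinearMap.ker (nu h hx) := (mem_ker_nu h hx).2 hxe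
  by_contra hcon
  push Not at hcon
  have h5 : finrank F (LinearMap.ker (nu h hx)) = 2 := by
    have h6 := LinearMap.finrank_range_add_finrank_ker (nu h hx)
    have h7 := range_ne h hx hxr hr hx1
    have h8 := ker_ne h hx hxr hr
    have h9 : finrank F (LinearMap.ker (nu h hx)) ≠ 0 := by
      intro h10
      rw [Submodule.finrank_eq_zero] at h10
      rw [h10] at h3
      exact he h3
    omega
  have hli : ∀ a b : F, a • e + b • w = 0 → a = 0 ∧ b = 0 := by
    intro a b hab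
    by_cases hb : b = 0
    · rw [hb, zero_smul, add_zero] at hab
      exact ⟨(smul_eq_zero.1 hab).resolve_right he, hb⟩
    · exfalso
      apply hcon (-(b⁻¹ * a))
      have h6 : w = b⁻¹ • (b • w) := by rw [smul_smul, inv_mul_cancel₀ hb, one_smul]
      have h7 : b • w = -(a • e) := (neg_eq_of_add_eq_zero_right hab).symm
      rw [h6, h7, smul_neg, smul_smul, neg_smul]
  apply he
  refine nondeg_CD h hx hxr hr (fun c hc => ?_) fun y => orth h hx hxe y
  obtain ⟨a, b, hab⟩ := span_pair h5 h3 h2 hli ((mem_ker_nu h hx).2 hc)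
  rw [← hab, map_add, map_smul, map_smul, h.self, hew, smul_zero, smul_zero, add_zero]

theorem exists_perp (h : Ev B N) [FiniteDimensional F V] (h4 : finrank F V = 4) (e : V) :
    ∃ w, B e w = 0 ∧ ∀ b : F, w ≠ b • e := by
  by_contra hcon
  push Not at hcon
  have h1 : LinearMap.ker (B e) ≤ Submodule.span F {e} := by
    intro w hw
    obtain ⟨b, hb⟩ := hcon w (LinearMap.mem_ker.1 hw)
    rw [hb]
    exact Submodule.smul_mem _ _ (Submodule.mem_span_singleton_self e)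
  have h2 := Submodule.finrank_mono h1
  have h3 : finrank F (Submodule.span F {e}) ≤ 1 := (finrank_span_le_card ({e} : Set V)).trans (by simp)
  have h5 := LinearMap.finrank_range_add_finrank_ker (B e)
  have h6 : finrank F (LinearMap.range (B e)) ≤ 1 := (Submodule.finrank_le _).trans (by simp)
  omega

theorem IsQ.eq (h : Ev B N) {e : V} {g g' : G} {w : V} {c : F} (h1 : IsQ B e g w c) (h2 : IsQ B e g' w c) : g = g' :=
  h.ext fun z => by rw [h1, h2]

/-- commutators of a transvection with `(w, c)` -/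
theorem IsQ.comm_tr (h : Ev B N) {e : V} {t : G} {w : V} {c : F} (ht : t ∈ N) (he : B e w = 0) (h1 : IsQ B e t w c) {w' : V}
    (he' : B e w' = 0) (hw : B w w' ≠ 0) : ∃ k ∈ N, (∀ (u : G) (μ : F), IsQ B e u 0 μ → k * u = u * k) ∧
      IsQ B e (k * t * k⁻¹ * t⁻¹) w' (B w w') := by
  have hke : h.tr w' (B w w')⁻¹ • e = e := by rw [h.tr_apply, he', mul_zero, zero_smul, add_zero]
  refine ⟨h.tr w' (B w w')⁻¹, h.tr_mem _ _, ?_, ?_⟩
  · intro u μ hu
    have h2 := hu.conj h (h.tr_mem w' (B w w')⁻¹) hke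
    rw [smul_zero] at h2
    have h3 := h2.eq h hu
    rwa [mul_inv_eq_iff_eq_mul] at h3
  · have h2 := h1.conj h (h.tr_mem w' (B w w')⁻¹) hke
    have h3 : h.tr w' (B w w')⁻¹ • w = w + w' := by
      rw [h.tr_apply, inv_mul_cancel₀ hw, one_smul]
    rw [h3] at h2
    rw [h1.inv h ht he]
    have h4 := h2.mul h (N.mul_mem (N.mul_mem (h.tr_mem _ _) ht) (N.inv_mem (h.tr_mem _ _)))
      (by rw [map_add, he, he', add_zero]) he h1
    have h5 : w + w' + w = w' := by rw [add_right_comm, h.vadd_self, zero_add]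
    have h6 : c + c + B w (w + w') = B w w' := by rw [h.add_self, map_add, h.self, zero_add, zero_add]
    rw [h5, h6] at h4
    exact h4

theorem exists_ne_01 {F : Type*} [Field F] [Finite F] (hq : 2 < Nat.card F) : ∃ θ : F, θ ≠ 0 ∧ θ ≠ 1 := by
  by_contra hcon
  push Not at hcon
  have h1 : (Set.univ : Set F) ⊆ {0, 1} := by
    intro θ _
    by_cases h : θ = 0
    · exact Or.inl h
    · exact Or.inr (hcon θ h)
  have h2 := Set.ncard_le_ncard h1 (Set.toFinite _)
  rw [Set.ncard_univ] at h2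
  have h3 : ({0, 1} : Set F).ncard ≤ 2 := Set.ncard_insert_le _ _ |>.trans (by simp)
  omega

theorem one_add_ne (h : Ev B N) {θ : F} (h1 : θ ≠ 1) : 1 + θ ≠ 0 := by
  intro h2
  apply h1
  linear_combination h2 - h.two

/-- **final step, transvections** -/
theorem fin1 [Finite F] (hq : 2 < Nat.card F) (h : Ev B N) {e : V} (he0 : e ≠ 0) {u : G} {μ : F} (hu : IsQ B e u 0 μ)
    {t : G} {w : V} {c : F} (ht : t ∈ N) (he : B e w = 0) (h1 : IsQ B e t w c) (hw : ∀ b : F, w ≠ b • e) :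
    u ∈ cmm (N ⊓ Subgroup.centralizer {u}) t := by
  obtain ⟨θ, hθ0, hθ1⟩ := exists_ne_01 hq
  have hθ2 := one_add_ne h hθ1
  obtain ⟨w', h2, h3⟩ := exists_dual2 h he0 hw
  have key : ∀ y : V, B e y = 0 → B w y ≠ 0 → ∃ g ∈ cmm (N ⊓ Subgroup.centralizer {u}) t, g ∈ N ∧ IsQ B e g y (B w y) := by
    intro y hy hwy
    obtain ⟨k, hk, hku, hk2⟩ := h1.comm_tr h ht he hy hwy
    exact ⟨_, mem_cmm ⟨hk, Subgroup.mem_centralizer_singleton_iff.2 (hku u μ hu)⟩,
      N.mul_mem (N.mul_mem (N.mul_mem hk ht) (N.inv_mem hk)) (N.inv_mem ht), hk2⟩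
  have b2 : B w (μ • w + θ • w') = θ := by
    rw [map_add, map_smul, map_smul, h.self, smul_zero, zero_add, h2, smul_eq_mul, mul_one]
  have b3 : B w (μ • w + (1 + θ) • w') = 1 + θ := by
    rw [map_add, map_smul, map_smul, h.self, smul_zero, zero_add, h2, smul_eq_mul, mul_one]
  have e2 : ∀ a b : F, B e (a • w + b • w') = 0 := fun a b => by
    rw [map_add, map_smul, map_smul, he, h3, smul_zero, smul_zero, add_zero]
  obtain ⟨g1, c1, n1, q1⟩ := key w' h3 (by rw [h2]; exact one_ne_zero)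
  obtain ⟨g2, c2, n2, q2⟩ := key (μ • w + θ • w') (e2 _ _) (by rw [b2]; exact hθ0)
  obtain ⟨g3, c3, n3, q3⟩ := key (μ • w + (1 + θ) • w') (e2 _ _) (by rw [b3]; exact hθ2)
  have m1 := (q1.mul h n1 h3 (e2 _ _) q2).mul h (N.mul_mem n1 n2) (by rw [map_add, h3, e2, add_zero]) (e2 _ _) q3
  have h4 : w' + (μ • w + θ • w') + (μ • w + (1 + θ) • w') = 0 := by
    have h5 : w' + (μ • w + θ • w') + (μ • w + (1 + θ) • w') = (2 : F) • (μ • w + (1 + θ) • w') := by module
    rw [h5, h.two, zero_smul]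
  have h5 : B w w' + B w (μ • w + θ • w') + B (μ • w + θ • w') w' + B w (μ • w + (1 + θ) • w') +
      B (μ • w + (1 + θ) • w') (w' + (μ • w + θ • w')) = μ := by
    rw [b2, b3]
    simp only [map_add, map_smul, LinearMap.add_apply, LinearMap.smul_apply, h.self, h2, h.symm w' w, smul_eq_mul]
    linear_combination (1 + θ + μ + μ * θ) * h.two
  rw [h4, h5] at m1
  have h6 := (cmm _ _).mul_mem ((cmm _ _).mul_mem c1 c2) c3
  rwa [← hu.eq h m1] at h6

/-- **`u` is a transvection** -/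
theorem fals1 {Ω ι : Type*} [Finite F] [FiniteDimensional F V] [Finite G] [MulAction G Ω] [Nonempty Ω] [Finite ι] (h : Ev B N)
    (hE : Env G Ω N) {x : ι → G} {r : ι → ℕ} (hx : PF x r) (hcov : Cov Ω x) (hdim : finrank F V = 4) (hq : 2 < Nat.card F)
    (hlin : ∀ i, x i ∈ N) {i0 : ι} (hi : r i0 = 2) {j0 : ι} (hj0 : j0 ≠ i0) {e : V} {c : F} (he : e ≠ 0) (hc : c ≠ 0)
    (hu : IsQ B e (x i0) 0 c) : False := by
  have hodd : ∀ j, j ≠ i0 → r j % 2 = 1 := fun j hj =>
    (hx.prime j).eq_two_or_odd.resolve_left fun h3 => hj (hx.inj (h3.trans hi.symm))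
  have hfix : ∀ j, x j • e = e := fun j => fix_centre h he hc hu (hlin j) (hx.comm _ _)
  obtain ⟨w, hew, hwe⟩ := exists_perp h hdim e
  have hu0 : IsQ B e (h.sr hew) w 0 := fun z => by rw [h.sr_apply, zero_mul, add_zero]
  have hu0N := h.sr_mem hew
  have hjw : B e (x j0 • w) = 0 := by
    have := h.isom (hlin j0) e w
    rwa [hfix, hew] at this
  have hu1 := hu0.conj h (hlin j0) (hfix j0)
  have ht := hu0.mul h hu0N hew hjw hu1
  have ht' : h.sr hew * (x j0 * h.sr hew * (x j0)⁻¹) = h.sr hew * x j0 * (h.sr hew)⁻¹ * (x j0)⁻¹ := by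
    rw [h.sr_inv]; group
  rw [ht'] at ht
  have hmem : ∀ j, ∀ g ∈ QS h e, x j * g * (x j)⁻¹ ∈ QS h e := by
    rintro j g ⟨hg, w', c', he', h1⟩
    refine ⟨N.mul_mem (N.mul_mem (hlin j) hg) (N.inv_mem (hlin j)), x j • w', c', ?_, h1.conj h (hlin j) (hfix j)⟩
    have := h.isom (hlin j) e w'
    rwa [hfix, he'] at this
  have hu0Q : h.sr hew ∈ QS h e := ⟨hu0N, w, 0, hew, hu0⟩
  refine two_rule hE hx hcov hi (U := QS h e) ?_ ?_ hmem ?_ hj0 hu0Q ?_
  · rintro g ⟨hg, w', c', he', h1⟩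
    exact h1.sq h hg he'
  · exact ⟨hlin i0, 0, c, by rw [map_zero], hu⟩
  · rintro i j hi1 hj1 g ⟨hg, w', c', he', h1⟩ hgi
    have h2 := h1.conj h (hlin i) (hfix i)
    have h3 : x i * g * (x i)⁻¹ = g := by rw [← hgi, mul_inv_cancel_right]
    rw [h3] at h2
    obtain ⟨z, hz⟩ := exists_dual h he
    rw [h.symm] at hz
    have h4 := (h1 z).symm.trans (h2 z)
    rw [hz, one_smul, one_smul, add_assoc, add_assoc] at h4
    have h5 := add_left_cancel h4
    have h6 : x i • w' + w' = (B z w' + B z (x i • w')) • e := by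
      have h7 : x i • w' = w' + (B z w' + c' * 1) • e - (B z (x i • w') + c' * 1) • e := eq_sub_of_add_eq h5.symm
      have h8 : x i • w' + w' = (2 : F) • (w' - B z (x i • w') • e) + (B z w' + B z (x i • w')) • e := by
        nth_rewrite 1 [h7]
        module
      rw [h8, h.two, zero_smul, zero_add]
    obtain ⟨b, hb⟩ := fpf1 h hdim (hlin i) (hx.pow i) (hodd i hi1) (hx.ne i) he (hfix i) he' h6
    have h9 : ∀ z, g • z = z + (c' * B z e) • e := by
      intro z
      have h10 : z + B z e • b • e + (B z (b • e) + c' * B z e) • e =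
          z + (c' * B z e) • e + (2 : F) • ((b * B z e) • e) := by
        rw [map_smul, smul_eq_mul]; module
      rw [h1 z, hb, h10, h.two, zero_smul, add_zero]
    apply h.ext
    intro z
    rw [mul_smul, mul_smul, h9, h9, smul_add, h.lin (hlin j), hfix]
    have h10 := h.isom (hlin j) z e
    rw [hfix] at h10
    rw [h10]
  · refine fin1 hq h he hu (N.mul_mem (N.mul_mem (N.mul_mem hu0N (hlin j0)) (N.inv_mem hu0N)) (N.inv_mem (hlin j0)))
      (by rw [map_add, hew, hjw, add_zero]) ht fun b hb => ?_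
    rw [add_comm] at hb
    obtain ⟨b', hb'⟩ := fpf1 h hdim (hlin j0) (hx.pow j0) (hodd j0 hj0) (hx.ne j0) he (hfix j0) hew hb
    exact hwe b' hb'

/-- the element `(a, b, c)` of the unipotent radical of the stabiliser of `⟨v, v'⟩` -/
def IsM (B : LinearMap.BilinForm F V) (v v' : V) (g : G) (a b c : F) : Prop :=
  ∀ z : V, g • z = z + (a * B z v + c * B z v') • v + (b * B z v' + c * B z v) • v'

theorem IsM.swap {v v' : V} {g : G} {a b c : F} (h1 : IsM B v v' g a b c) : IsM B v' v g b a c := fun z => by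
  rw [h1 z, add_right_comm]

theorem IsM.eq (h : Ev B N) {v v' : V} {g g' : G} {a b c : F} (h1 : IsM B v v' g a b c) (h2 : IsM B v v' g' a b c) : g = g' :=
  h.ext fun z => by rw [h1, h2]

theorem IsM.mul (h : Ev B N) {v v' : V} (hv : B v v' = 0) {g g' : G} {a b c a' b' c' : F} (hg : g ∈ N)
    (h1 : IsM B v v' g a b c) (h2 : IsM B v v' g' a' b' c') : IsM B v v' (g * g') (a + a') (b + b') (c + c') := by
  intro z
  have h3 : g • v = v := by rw [h1, h.self, hv]; simp
  have h4 : g • v' = v' := by rw [h1, h.self, h.symm, hv]; simp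
  rw [mul_smul, h2, smul_add, smul_add, h.lin hg, h.lin hg, h3, h4, h1]
  module

theorem IsM.sq (h : Ev B N) {v v' : V} (hv : B v v' = 0) {g : G} {a b c : F} (hg : g ∈ N) (h1 : IsM B v v' g a b c) :
    g * g = 1 := by
  apply h.ext
  intro z
  rw [IsM.mul h hv hg h1 h1 z, h.add_self, h.add_self, h.add_self, one_smul]
  simp

theorem IsM.inv (h : Ev B N) {v v' : V} (hv : B v v' = 0) {g : G} {a b c : F} (hg : g ∈ N) (h1 : IsM B v v' g a b c) :
    g⁻¹ = g := inv_eq_of_mul_eq_one_left (h1.sq h hv hg)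

theorem IsM.conj (h : Ev B N) {v v' : V} {g x : G} {a b c : F} (hx : x ∈ N) {l : F} (h1 : IsM B v v' g a b c)
    (hv : x • v = v) (hv' : x • v' = v' + l • v) : IsM B v v' (x * g * x⁻¹) (a + b * l ^ 2) b (c + b * l) := by
  intro z
  have h2 : ∀ y : V, B (x⁻¹ • z) y = B z (x • y) := fun y => by rw [← h.isom hx, smul_inv_smul]
  rw [mul_smul, mul_smul, h1, smul_add, smul_add, h.lin hx, h.lin hx, smul_inv_smul, h2, h2, hv, hv', map_add, map_smul,
    smul_eq_mul]
  have h3 : z + (a * B z v + c * (B z v' + l * B z v)) • v + (b * (B z v' + l * B z v) + c * B z v) • (v' + l • v) =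
      z + ((a + b * l ^ 2) * B z v + (c + b * l) * B z v') • v + (b * B z v' + (c + b * l) * B z v) • v' +
        (2 : F) • ((c * l * B z v) • v) := by module
  rw [h3, h.two, zero_smul, add_zero]

/-- **final step, short root elements** (`b ≠ 0`) -/
theorem fin2 [Finite F] (hq : 2 < Nat.card F) (h : Ev B N) {v v' w w' : V} (hvv : B v v' = 0) (hvw : B v w = 1)
    (hvw' : B v w' = 0) (hv'w : B v' w = 0) (hv'w' : B v' w' = 1) {u : G} {μ : F} (hu : IsM B v v' u 0 0 μ) {t : G}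
    {a b c : F} (ht : t ∈ N) (h1 : IsM B v v' t a b c) (hb : b ≠ 0) :
    u ∈ cmm (N ⊓ Subgroup.centralizer {u}) t := by
  obtain ⟨θ, hθ0, hθ1⟩ := exists_ne_01 hq
  have hθ2 := one_add_ne h hθ1
  have a1 : ∀ l : F, ∃ g ∈ N, g • v = v ∧ g • v' = v' + l • v := by
    intro l
    have h2 : B v (l • w') = 0 := by rw [map_smul, hvw', smul_zero]
    refine ⟨h.sr h2, h.sr_mem h2, ?_, ?_⟩
    · rw [h.sr_apply, h.self, h2]; simp
    · rw [h.sr_apply, h.symm v' v, hvv, map_smul, hv'w']; simp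
  have a2 : ∀ l : F, ∃ g ∈ N, g • v' = v' ∧ g • v = v + l • v' := by
    intro l
    have h2 : B v' (l • w) = 0 := by rw [map_smul, hv'w, smul_zero]
    refine ⟨h.sr h2, h.sr_mem h2, ?_, ?_⟩
    · rw [h.sr_apply, h.self, h2]; simp
    · rw [h.sr_apply, hvv, map_smul, hvw]; simp
  have e1 : ∀ l : F, ∃ g ∈ cmm (N ⊓ Subgroup.centralizer {u}) t, g ∈ N ∧ IsM B v v' g (b * l ^ 2) 0 (b * l) := by
    intro l
    obtain ⟨g, hg, h2, h3⟩ := a1 l
    have h4 := h1.conj h hg h2 h3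
    have h5 := hu.conj h hg h2 h3
    rw [zero_mul, zero_mul, add_zero, add_zero] at h5
    have h6 := h5.eq h hu
    rw [mul_inv_eq_iff_eq_mul] at h6
    refine ⟨g * t * g⁻¹ * t⁻¹, mem_cmm ⟨hg, Subgroup.mem_centralizer_singleton_iff.2 h6⟩,
      N.mul_mem (N.mul_mem (N.mul_mem hg ht) (N.inv_mem hg)) (N.inv_mem ht), ?_⟩
    rw [h1.inv h hvv ht]
    have h7 := h4.mul h hvv (N.mul_mem (N.mul_mem hg ht) (N.inv_mem hg)) h1
    have h8 : a + b * l ^ 2 + a = b * l ^ 2 := by rw [add_right_comm, h.add_self, zero_add]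
    have h9 : c + b * l + c = b * l := by rw [add_right_comm, h.add_self, zero_add]
    rw [h8, h9, h.add_self] at h7
    exact h7
  have e3 : ∀ l m : F, ∃ g ∈ cmm (N ⊓ Subgroup.centralizer {u}) t, g ∈ N ∧
      IsM B v v' g 0 (b * l ^ 2 * m ^ 2) (b * l ^ 2 * m) := by
    intro l m
    obtain ⟨g1, c1, n1, q1⟩ := e1 l
    obtain ⟨k, hk, h2, h3⟩ := a2 m
    have h4 := (q1.swap.conj h hk h2 h3).swap
    have h5 := (hu.swap.conj h hk h2 h3).swap
    rw [zero_mul, zero_mul, add_zero, add_zero] at h5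
    have h6 := h5.eq h hu
    rw [mul_inv_eq_iff_eq_mul] at h6
    have h7 := h4.mul h hvv (N.mul_mem (N.mul_mem hk n1) (N.inv_mem hk)) q1
    refine ⟨k * g1 * k⁻¹ * g1, (cmm _ _).mul_mem (cmm_conj ⟨hk, Subgroup.mem_centralizer_singleton_iff.2 h6⟩ c1) c1,
      N.mul_mem (N.mul_mem (N.mul_mem hk n1) (N.inv_mem hk)) n1, ?_⟩
    have h8 : b * l + b * l ^ 2 * m + b * l = b * l ^ 2 * m := by rw [add_right_comm, h.add_self, zero_add]
    rw [h8, h.add_self, zero_add, add_zero] at h7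
    exact h7
  set n : F := μ / (b * (1 + θ)) with hn
  obtain ⟨g1, c1, n1, q1⟩ := e3 1 n
  obtain ⟨g2, c2, n2, q2⟩ := e3 θ (n / θ)
  have m1 := q1.mul h hvv n1 q2
  have h2 : b * 1 ^ 2 * n ^ 2 + b * θ ^ 2 * (n / θ) ^ 2 = 0 := by
    have h3 : b * θ ^ 2 * (n / θ) ^ 2 = b * n ^ 2 := by field_simp
    rw [h3, one_pow, mul_one, h.add_self]
  have h3 : b * 1 ^ 2 * n + b * θ ^ 2 * (n / θ) = μ := by
    have h4 : b * θ ^ 2 * (n / θ) = b * θ * n := by field_simp
    rw [h4, hn]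
    field_simp
  rw [h2, h3, add_zero] at m1
  have h6 := (cmm _ _).mul_mem c1 c2
  rwa [← hu.eq h m1] at h6

theorem nu_nu (h : Ev B N) {u : G} (hu2 : u * u = 1) (z : V) : u • (u • z + z) = u • z + z := by
  rw [smul_add, ← mul_smul, hu2, one_smul, add_comm]

/-- the fixed space of `u` is totally isotropic when it is the commutator space -/
theorem iso_fix (h : Ev B N) {u : G} (hu : u ∈ N) (hu2 : u * u = 1)
    (hru : ∀ z : V, u • z = z → ∃ y : V, u • y + y = z) {z z' : V} (hz : u • z = z) (hz' : u • z' = z') : B z z' = 0 := by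
  obtain ⟨y, rfl⟩ := hru z hz
  rw [adj h hu hu2, hz', h.vadd_self, map_zero]

/-- fixed-point-freeness -/
theorem fpf2 (h : Ev B N) [FiniteDimensional F V] (h4 : finrank F V = 4) {u x : G} (hu : u ∈ N) (hu2 : u * u = 1)
    (hru : ∀ z : V, u • z = z → ∃ y : V, u • y + y = z) (hx : x ∈ N) {r : ℕ} (hxr : x ^ r = 1)
    (hr : r % 2 = 1) (hx1 : x ≠ 1) (hxu : u * x = x * u) {z : V} (hz : x • z = z) : z = 0 := by
  have hne := range_ne h hx hxr hr hx1
  by_contra hz0
  have h5 : finrank F (LinearMap.range (nu h hx)) = 2 := by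
    have h6 := LinearMap.finrank_range_add_finrank_ker (nu h hx)
    have h8 := ker_ne h hx hxr hr
    have h9 : finrank F (LinearMap.ker (nu h hx)) ≠ 0 := by
      intro h10
      rw [Submodule.finrank_eq_zero] at h10
      have h3 : z ∈ LinearMap.ker (nu h hx) := (mem_ker_nu h hx).2 hz
      rw [h10] at h3
      exact hz0 h3
    omega
  have hnd : ∀ d ∈ LinearMap.range (nu h hx), (∀ d' ∈ LinearMap.range (nu h hx), B d d' = 0) → d = 0 := by
    rintro d ⟨y, rfl⟩ h6
    refine nondeg_CD h hx hxr hr (fun c hc => ?_) fun y' => h6 _ ⟨y', rfl⟩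
    rw [nu_apply, h.symm]
    exact orth h hx hc y
  have hfix : ∀ d ∈ LinearMap.range (nu h hx), u • d = d := by
    intro d hd
    by_cases hd0 : d = 0
    · rw [hd0, smul_zero]
    have h6 : B d (u • d + d) = 0 := by
      obtain ⟨y, rfl⟩ := hd
      exact q_zero h hu hu2 hx hxu y
    have h7 : u • d + d ∈ LinearMap.range (nu h hx) := by
      obtain ⟨y, rfl⟩ := hd
      refine ⟨u • y + y, ?_⟩
      rw [nu_apply, nu_apply]
      have h3 : u • x • y = x • u • y := by rw [← mul_smul, hxu, mul_smul]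
      rw [smul_add, smul_add, h3]; abel
    obtain ⟨c, hc⟩ := plane h h5 hnd hd h7 hd0 h6
    have h8 := nu_nu h hu2 d
    rw [hc, h.lin hu] at h8
    by_cases hc0 : c = 0
    · rw [hc0, zero_smul] at hc
      have h9 := eq_neg_of_add_eq_zero_left hc
      rwa [h.vneg] at h9
    · exact smul_right_injective V hc0 h8
  have h6 : LinearMap.range (nu h hx) = ⊥ := by
    rw [eq_bot_iff]
    intro d hd
    exact hnd d hd fun d' hd' => iso_fix h hu hu2 hru (hfix d hd) (hfix d' hd')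
  rw [h6, finrank_bot] at h5
  omega

/-- all elements of `N` which are trivial on the fixed space of `u` -/
def UE (N : Subgroup G) (V : Type*) [AddCommGroup V] [DistribMulAction G V] (u : G) : Subgroup G where
  carrier := {g | g ∈ N ∧ ∀ z : V, u • z = z → g • z = z}
  one_mem' := ⟨N.one_mem, fun z _ => one_smul _ z⟩
  mul_mem' := by
    rintro g g' ⟨hg, h1⟩ ⟨hg', h2⟩
    exact ⟨N.mul_mem hg hg', fun z hz => by rw [mul_smul, h2 z hz, h1 z hz]⟩
  inv_mem' := by
    rintro g ⟨hg, h1⟩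
    exact ⟨N.inv_mem hg, fun z hz => by rw [inv_smul_eq_iff, h1 z hz]⟩

theorem UE_fix (h : Ev B N) {u : G} (hu : u ∈ N) (hu2 : u * u = 1) {g : G} (hg : g ∈ UE N V u) (z : V) :
    u • (g • z + z) = g • z + z := by
  have h1 : u • (g • z + z) + (g • z + z) = 0 := by
    apply h.nd
    intro a
    rw [adj h hu hu2, map_add B, LinearMap.add_apply]
    have h2 : B (g • z) (u • a + a) = B z (u • a + a) := by
      rw [← h.isom hg.1 z, hg.2 _ (nu_nu h hu2 a)]
    rw [h2, h.add_self]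
  have h2 := eq_neg_of_add_eq_zero_left h1
  rwa [h.vneg] at h2

theorem UE_sq (h : Ev B N) {u : G} (hu : u ∈ N) (hu2 : u * u = 1) {g : G} (hg : g ∈ UE N V u) : g * g = 1 := by
  apply h.ext
  intro z
  have h1 := hg.2 _ (UE_fix h hu hu2 hg z)
  rw [smul_add, add_comm (g • z) z] at h1
  rw [mul_smul, one_smul]
  exact add_right_cancel h1

theorem UE_conj (h : Ev B N) {u x g : G} (hx : x ∈ N) (hxu : u * x = x * u) (hg : g ∈ UE N V u) :
    x * g * x⁻¹ ∈ UE N V u := by
  refine ⟨N.mul_mem (N.mul_mem hx hg.1) (N.inv_mem hx), fun z hz => ?_⟩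
  have h1 : u • x⁻¹ • z = x⁻¹ • z := by
    rw [eq_inv_smul_iff, ← mul_smul, ← hxu, mul_smul, smul_inv_smul, hz]
  rw [mul_smul, mul_smul, hg.2 _ h1, smul_inv_smul]

theorem UE_form (h : Ev B N) [FiniteDimensional F V] {u x g : G} (hu : u ∈ N) (hu2 : u * u = 1) (hx : x ∈ N)
    (hfpf : ∀ z : V, x • z = z → z = 0) (hg : g ∈ UE N V u) (hgx : g * x = x * g) (z : V) : B z (g • z + z) = 0 := by
  have h1 : Function.Injective (nu h hx) := by
    rw [← LinearMap.ker_eq_bot, eq_bot_iff]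
    intro y hy
    exact hfpf y ((mem_ker_nu h hx).1 hy)
  obtain ⟨y, rfl⟩ := (LinearMap.injective_iff_surjective.1 h1) z
  exact q_zero h hg.1 (UE_sq h hu hu2 hg) hx hgx y

/-- the elements of `UE` with trivial form -/
theorem UE_isM (h : Ev B N) {u g : G} (hu : u ∈ N) (hu2 : u * u = 1) (hg : g ∈ UE N V u)
    (hform : ∀ z : V, B z (g • z + z) = 0) {v v' w w' : V} (hE : ∀ z : V, u • z = z → ∃ a b : F, a • v + b • v' = z)
    (hvw : B v w = 1) (hvw' : B v w' = 0) (hv'w : B v' w = 0) (hv'w' : B v' w' = 1) : ∃ μ, IsM B v v' g 0 0 μ := by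
  have h1 : ∀ z : V, ∃ ab : F × F, ab.1 • v + ab.2 • v' = g • z + z := fun z => by
    obtain ⟨a, b, hab⟩ := hE _ (UE_fix h hu hu2 hg z)
    exact ⟨(a, b), hab⟩
  choose f hf using h1
  have h2 : ∀ z y : V, (f z).1 * B v y + (f z).2 * B v' y = (f y).1 * B z v + (f y).2 * B z v' := by
    intro z y
    have h3 := adj h hg.1 (UE_sq h hu hu2 hg) z y
    rw [← hf, ← hf] at h3
    simpa only [map_add, map_smul, LinearMap.add_apply, LinearMap.smul_apply, smul_eq_mul] using h3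
  have h3 : ∀ z, (f z).1 = (f w).1 * B z v + (f w).2 * B z v' := fun z => by
    have := h2 z w
    rwa [hvw, hv'w, mul_one, mul_zero, add_zero] at this
  have h4 : ∀ z, (f z).2 = (f w').1 * B z v + (f w').2 * B z v' := fun z => by
    have := h2 z w'
    rwa [hvw', hv'w', mul_one, mul_zero, zero_add] at this
  have h5 : (f w).1 = 0 := by
    have := hform w
    rw [← hf, map_add, map_smul, map_smul, h.symm w v, h.symm w v', hvw, hv'w, smul_zero, add_zero, smul_eq_mul,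
      mul_one] at this
    exact this
  have h6 : (f w').2 = 0 := by
    have := hform w'
    rw [← hf, map_add, map_smul, map_smul, h.symm w' v, h.symm w' v', hvw', hv'w', smul_zero, zero_add, smul_eq_mul,
      mul_one] at this
    exact this
  have h7 : (f w').1 = (f w).2 := by
    have := h3 w'
    rwa [h5, zero_mul, zero_add, h.symm w' v', hv'w', mul_one] at this
  refine ⟨(f w).2, fun z => ?_⟩
  have h8 := hf z
  rw [h3 z, h4 z, h5, h6, h7] at h8
  have h9 : g • z = z + (g • z + z) := by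
    rw [add_comm (g • z) z, ← add_assoc, h.vadd_self, zero_add]
  rw [h9, ← h8, ← add_assoc]
  simp only [zero_mul, zero_add, add_zero]

/-- bases adapted to the fixed space of `u` -/
theorem exists_frame (h : Ev B N) [FiniteDimensional F V] {u : G} (hu : u ∈ N) (h2 : finrank F (LinearMap.ker (nu h hu)) = 2) :
    ∃ v v' w w' : V, u • v = v ∧ u • v' = v' ∧ (∀ z : V, u • z = z → ∃ a b : F, a • v + b • v' = z) ∧ v ≠ 0 ∧
      B v w = 1 ∧ B v w' = 0 ∧ B v' w = 0 ∧ B v' w' = 1 := by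
  let b := Module.finBasisOfFinrankEq F (LinearMap.ker (nu h hu)) h2
  have hb0 := (mem_ker_nu h hu).1 (b 0).2
  have hb1 := (mem_ker_nu h hu).1 (b 1).2
  have hli : ∀ s t : F, s • (b 0 : V) + t • (b 1 : V) = 0 → s = 0 ∧ t = 0 := by
    intro s t hst
    have h3 := Fintype.linearIndependent_iff.1 b.linearIndependent ![s, t] (by
      rw [Fin.sum_univ_two]
      exact Subtype.ext (by simpa using hst))
    exact ⟨h3 0, h3 1⟩
  have hv : (b 0 : V) ≠ 0 := fun h3 => by
    have := hli 1 0 (by rw [h3]; simp)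
    exact one_ne_zero this.1
  have hv' : (b 1 : V) ≠ 0 := fun h3 => by
    have := hli 0 1 (by rw [h3]; simp)
    exact one_ne_zero this.2
  have h3 : ∀ c : F, (b 0 : V) ≠ c • (b 1 : V) := fun c hc => by
    have := hli 1 (-c) (by rw [hc]; module)
    exact one_ne_zero this.1
  have h4 : ∀ c : F, (b 1 : V) ≠ c • (b 0 : V) := fun c hc => by
    have := hli (-c) 1 (by rw [hc]; module)
    exact one_ne_zero this.2
  obtain ⟨w, hw, hw2⟩ := exists_dual2 h hv' h3
  obtain ⟨w', hw', hw2'⟩ := exists_dual2 h hv h4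
  refine ⟨b 0, b 1, w, w', hb0, hb1, fun z hz => ?_, hv, hw, hw2', hw2, hw'⟩
  have h5 := b.sum_repr ⟨z, (mem_ker_nu h hu).2 hz⟩
  rw [Fin.sum_univ_two] at h5
  exact ⟨_, _, congrArg Subtype.val h5⟩

/-- **`u` is a short root element** -/
theorem fals2 {Ω ι : Type*} [Finite F] [FiniteDimensional F V] [Finite G] [MulAction G Ω] [Nonempty Ω] [Finite ι] (h : Ev B N)
    (hE : Env G Ω N) {x : ι → G} {r : ι → ℕ} (hx : PF x r) (hcov : Cov Ω x) (hdim : finrank F V = 4) (hq : 2 < Nat.card F)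
    (hlin : ∀ i, x i ∈ N) {i0 : ι} (hi : r i0 = 2) {j0 : ι} (hj0 : j0 ≠ i0) (hu2 : x i0 * x i0 = 1)
    (hru : ∀ z : V, x i0 • z = z → ∃ y : V, x i0 • y + y = z)
    (hk : finrank F (LinearMap.ker (nu h (hlin i0))) = 2) : False := by
  have hodd : ∀ j, j ≠ i0 → r j % 2 = 1 := fun j hj =>
    (hx.prime j).eq_two_or_odd.resolve_left fun h3 => hj (hx.inj (h3.trans hi.symm))
  have hfpf : ∀ j, j ≠ i0 → ∀ z : V, x j • z = z → z = 0 := fun j hj z hz =>
    fpf2 h hdim (hlin i0) hu2 hru (hlin j) (hx.pow j) (hodd j hj) (hx.ne j) (hx.comm _ _) hz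
  obtain ⟨v, v', w, w', hv, hv', hspan, hv0, hvw, hvw', hv'w, hv'w'⟩ := exists_frame h (hlin i0) hk
  have hvv : B v v' = 0 := iso_fix h (hlin i0) hu2 hru hv hv'
  have huU : x i0 ∈ UE N V (x i0) := ⟨hlin i0, fun z hz => hz⟩
  have hM : ∀ j, j ≠ i0 → ∀ g ∈ UE N V (x i0), g * x j = x j * g → ∃ μ, IsM B v v' g 0 0 μ := fun j hj g hg hgj =>
    UE_isM h (hlin i0) hu2 hg (UE_form h (hlin i0) hu2 (hlin j) (hfpf j hj) hg hgj) hspan hvw hvw' hv'w hv'w'
  obtain ⟨μ, hμ⟩ := hM j0 hj0 _ huU (hx.comm _ _)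
  have hμ0 : μ ≠ 0 := by
    rintro rfl
    apply hx.ne i0
    apply h.ext
    intro z
    rw [hμ z]; simp
  have hμ' : ∀ z, x i0 • z + z = μ • (B z v' • v + B z v • v') := by
    intro z
    rw [hμ z]
    have : z + (0 * B z v + μ * B z v') • v + (0 * B z v' + μ * B z v) • v' + z =
      (2 : F) • z + μ • (B z v' • v + B z v • v') := by module
    rw [this, h.two, zero_smul, zero_add]
  have hcen : ∀ {g : G} {m : F}, IsM B v v' g 0 0 m → ∀ z : V, g • z = z + (m / μ) • (x i0 • z + z) := by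
    intro g m hg z
    rw [hμ', smul_smul, div_mul_cancel₀ _ hμ0, hg z]
    module
  have hu0N := h.tr_mem v 1
  have hu0 : IsM B v v' (h.tr v 1) 1 0 0 := fun z => by
    rw [h.tr_apply]
    simp
  have hu0U : h.tr v 1 ∈ UE N V (x i0) := ⟨hu0N, fun z hz => by
    rw [h.tr_apply, iso_fix h (hlin i0) hu2 hru hz hv]; simp⟩
  -- the element `t`
  have hjv : x i0 • x j0 • v = x j0 • v := by rw [← mul_smul, hx.comm, mul_smul, hv]
  obtain ⟨α, β, hαβ⟩ := hspan _ hjv
  have hu1 : IsM B v v' (x j0 * h.tr v 1 * (x j0)⁻¹) (α ^ 2) (β ^ 2) (α * β) := by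
    intro z
    have h2 : B ((x j0)⁻¹ • z) v = B z (x j0 • v) := by rw [← h.isom (hlin j0), smul_inv_smul]
    rw [mul_smul, mul_smul, h.tr_apply, smul_add, h.lin (hlin j0), smul_inv_smul, h2, ← hαβ, map_add, map_smul, map_smul,
      smul_eq_mul, smul_eq_mul]
    module
  have hu1N : x j0 * h.tr v 1 * (x j0)⁻¹ ∈ N := N.mul_mem (N.mul_mem (hlin j0) hu0N) (N.inv_mem (hlin j0))
  have ht := hu0.mul h hvv hu0N hu1
  have ht' : h.tr v 1 * (x j0 * h.tr v 1 * (x j0)⁻¹) = h.tr v 1 * x j0 * (h.tr v 1)⁻¹ * (x j0)⁻¹ := by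
    rw [h.tr_inv]; group
  have htN := N.mul_mem hu0N hu1N
  rw [ht'] at ht htN
  refine two_rule hE hx hcov hi (U := UE N V (x i0)) ?_ huU (fun j g hg => UE_conj h (hlin j) (hx.comm _ _) hg) ?_ hj0
    hu0U ?_
  · intro g hg
    exact UE_sq h (hlin i0) hu2 hg
  · intro i j hi1 hj1 g hg hgi
    obtain ⟨m, hm⟩ := hM i hi1 g hg hgi
    apply h.ext
    intro z
    have h3 : x i0 • x j • z = x j • x i0 • z := by rw [← mul_smul, hx.comm, mul_smul]
    rw [mul_smul, mul_smul, hcen hm, hcen hm z, smul_add (x j) z, h.lin (hlin j), smul_add (x j), h3]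
  · by_cases hβ : β = 0
    · have hα : 1 + α ≠ 0 := by
        intro h3
        have hα1 : α = 1 := by linear_combination h3 - h.two
        rw [hβ, hα1, one_smul, zero_smul, add_zero] at hαβ
        exact hv0 (hfpf j0 hj0 v hαβ.symm)
      have ha : 1 + α ^ 2 ≠ 0 := by
        have : 1 + α ^ 2 = (1 + α) * (1 + α) := by linear_combination (-α) * h.two
        rw [this]
        exact mul_ne_zero hα hα
      exact fin2 hq h (by rw [h.symm, hvv]) hv'w' hv'w hvw' hvw hμ.swap htN ht.swap ha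
    · exact fin2 hq h hvv hvw hvw' hv'w hv'w' hμ htN ht (by rw [zero_add]; exact pow_ne_zero 2 hβ)

end geo

/-- **`Sp₄(q)`, `q ≥ 4` even: a cover contains no involution of the linear group** -/
theorem m2u {F V G Ω S : Type} [Field F] [Finite F] [AddCommGroup V] [Module F V] [FiniteDimensional F V] [Group G]
    [Finite G] [DistribMulAction G V] {B : LinearMap.BilinForm F V} {N : Subgroup G} (h : Ev B N) [MulAction G Ω]
    [Nonempty Ω] (hE : Env G Ω N) [Group S] [Finite S] (hIH : IH (Nat.card S)) (eS : N ≃* S) {ι : Type} [Finite ι]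
    {x : ι → G} {r : ι → ℕ} (hx : PF x r) (hcov : Cov Ω x) (hdim : finrank F V = 4) (hq : 2 < Nat.card F)
    (hlin : ∀ i, x i ∈ N) (i : ι) (hi : r i = 2) : False := by
  have hu2 : x i * x i = 1 := by
    have := hx.pow i
    rwa [hi, pow_two] at this
  by_cases hj : ∃ j0, j0 ≠ i
  swap
  · push Not at hj
    refine hE.not_all (hx.ne i) fun ω => ?_
    obtain ⟨j, hj'⟩ := hcov ω
    rw [hj j] at hj'
    exact hj'
  obtain ⟨j0, hj0⟩ := hj
  have hle : LinearMap.range (nu h (hlin i)) ≤ LinearMap.ker (nu h (hlin i)) := by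
    rintro _ ⟨z, rfl⟩
    rw [mem_ker_nu, nu_apply]
    exact nu_nu h hu2 z
  have h1 := LinearMap.finrank_range_add_finrank_ker (nu h (hlin i))
  have h2 := Submodule.finrank_mono hle
  have h3 : finrank F (LinearMap.range (nu h (hlin i))) ≠ 0 := by
    intro h4
    rw [Submodule.finrank_eq_zero] at h4
    apply hx.ne i
    apply h.inj
    intro z
    have h5 : nu h (hlin i) z ∈ LinearMap.range (nu h (hlin i)) := ⟨z, rfl⟩
    rw [h4, Submodule.mem_bot] at h5
    exact (mem_ker_nu h (hlin i)).1 (LinearMap.mem_ker.2 h5)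
  have h4 : finrank F (LinearMap.range (nu h (hlin i))) = 1 ∨ finrank F (LinearMap.range (nu h (hlin i))) = 2 := by omega
  rcases h4 with h4 | h4
  · obtain ⟨e, c, he, hc, hu⟩ := type1 h (hlin i) hu2 h4
    exact fals1 h hE hx hcov hdim hq hlin hi hj0 he hc hu
  · have h5 : finrank F (LinearMap.ker (nu h (hlin i))) = 2 := by omega
    have h6 := Submodule.eq_of_le_of_finrank_eq hle (h4.trans h5.symm)
    refine fals2 h hE hx hcov hdim hq hlin hi hj0 hu2 (fun z hz => ?_) h5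
    have h7 := (mem_ker_nu h (hlin i)).2 hz
    rw [← h6] at h7
    obtain ⟨y, hy⟩ := h7
    exact ⟨y, hy⟩

end Cfsg.Agent.H547.RC
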