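import Cfsg.Agent.H338.RC.TriS
import Cfsg.Agent.H675.RC.Single

/-!
# S3510, triality type (i): the dimension of the common fixed space of commuting automorphisms (helper547, box P3)
-/

set_option autoImplicit false

namespace Cfsg.Agent.H547.RC.TriDim

open Module QuadraticMap Cfsg.Agent.LieClassical.OrthCore Cfsg.Agent.LieClassical.OrthTrans
  Cfsg.Agent.LieClassical.OrthSimple Cfsg.Agent.ClassicalGeometry.OrthAut1
  Cfsg.Agent.ClassicalGeometry.OrthSemi Cfsg.Agent.H198.Classes
  Cfsg.Agent.LieClassical.QuadForms Cfsg.Agent.H198.ClassesPlus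
  Cfsg.Agent.ClassicalGeometry.TrialityOct Cfsg.Agent.ClassicalGeometry.Triality
  Cfsg.Agent.ClassicalGeometry.TrialitySpaces Cfsg.Agent.H198.TriBase Cfsg.Agent.H198.TriAut
  Cfsg.Agent.H206.Balance Cfsg.Agent.H198.BalVar Cfsg.Agent.H198.TriDia
  Cfsg.Agent.H338.RC.TriS

universe u

variable {F : Type u} [Field F]

/-- linear octonion automorphisms -/
def AL (F : Type u) [Field F] : Subgroup (G8 F) where
  carrier := {M | TriS M M M ∧ IsLin M}
  mul_mem' := by
    rintro M N ⟨h1, c, hc⟩ ⟨h2, d, hd⟩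
    exact ⟨h1.mul h2, _, hc.mul hd⟩
  one_mem' := ⟨TriS.one, 1, one_ne_zero, fun _ _ => rfl, fun _ _ => rfl, fun v => by rw [one_mul]; rfl⟩
  inv_mem' := by
    rintro M ⟨h1, c, hc⟩
    exact ⟨h1.inv, _, hc.inv⟩

/-- stabiliser of a vector -/
def Stv (v : V8 F) : Subgroup (G8 F) where
  carrier := {M | M.1 v = v}
  mul_mem' := by
    rintro M N (h1 : M.1 v = v) (h2 : N.1 v = v)
    show M.1 (N.1 v) = v
    rw [h2, h1]
  one_mem' := rfl
  inv_mem' := by
    rintro M (h1 : M.1 v = v)
    show M.1⁻¹ v = v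
    nth_rewrite 1 [← h1]
    exact inv_apply _ _

/-- **the common fixed space has dimension two or four** -/
theorem dim_fix [Finite F] (hG : Good (plusForm 4 F)) {κ : Type*} [Finite κ] (M : κ → G8 F) (r : κ → ℕ)
    (hT : ∀ j, TriS (M j) (M j) (M j)) (hl : ∀ j, IsLin (M j)) (hr : ∀ j, (r j).Prime) (hinj : Function.Injective r)
    (hrF : ∀ j, ((r j : ℕ) : F) ≠ 0) (hM : ∀ j, M j ^ r j = 1) (hc : ∀ i j, M i * M j = M j * M i)
    (hne : ∃ j, M j ≠ 1) (A : Submodule F (V8 F)) (hA : ∀ x, x ∈ A ↔ ∀ j, (M j).1 x = x) :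
    finrank F A = 2 ∨ finrank F A = 4 := by
  choose g hg hgM using fun j => exists_OL (hT j) (hl j)
  have hA' : ∀ x, x ∈ A ↔ ∀ j, g j x = x := fun x => by
    rw [hA]
    exact forall_congr' fun j => by rw [hgM]
  have hgpow : ∀ j, g j ^ r j = 1 := fun j => LinearEquiv.ext fun x => by
    rw [OL.pow_apply (hgM j), hM]; rfl
  have hgc : ∀ i j, g i * g j = g j * g i := fun i j => LinearEquiv.ext fun x => by
    show g i (g j x) = g j (g i x)
    rw [hgM, hgM, hgM, hgM]
    exact congrArg (fun m : G8 F => m.1 x) (hc i j)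
  have h1A : one8 F ∈ A := (hA' _).2 fun j => (hg j).one
  have hmA : ∀ x ∈ A, ∀ y ∈ A, omul x y ∈ A := fun x hx y hy => (hA' _).2 fun j => by
    rw [(hg j).mul, (hA' x).1 hx j, (hA' y).1 hy j]
  have hcA : ∀ x ∈ A, oconj x ∈ A := fun x hx => by
    rw [oconj_eq]
    exact A.sub_mem (A.smul_mem _ h1A) hx
  have hnd : ∀ x ∈ A, (∀ y ∈ A, polar (plusForm 4 F) x y = 0) → x = 0 := fun x hx h =>
    fix_nondeg g hg r hrF hgpow hgc ((hA' x).1 hx) fun y hy => h y ((hA' y).2 hy)
  -- the projection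
  have hproj : ∀ x : V8 F, ∃ a ∈ A, ∀ y ∈ A, polar (plusForm 4 F) y (x - a) = 0 := by
    intro x
    obtain ⟨v', c, hc0, hv', h⟩ := exists_avg g hg r hrF hgpow hgc x
    refine ⟨c⁻¹ • v', A.smul_mem _ ((hA' _).2 hv'), fun y hy => ?_⟩
    rw [polar_sub_right, polar_smul_right, h y ((hA' y).1 hy), smul_eq_mul, ← mul_assoc, inv_mul_cancel₀ hc0, one_mul,
      sub_self]
  -- a nonsingular vector orthogonal to `A`
  obtain ⟨v, hvA, hv⟩ : ∃ v : V8 F, (∀ y ∈ A, polar (plusForm 4 F) v y = 0) ∧ plusForm 4 F v ≠ 0 := by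
    obtain ⟨x, hx⟩ : ∃ x, x ∉ A := by
      obtain ⟨j, hj⟩ := hne
      by_contra hcon
      push Not at hcon
      exact hj (Subtype.ext (Equiv.ext fun x => (hA x).1 (hcon x) j))
    obtain ⟨a, ha, hax⟩ := hproj x
    have hw0 : x - a ≠ 0 := fun h => hx (by rw [sub_eq_zero.1 h]; exact ha)
    obtain ⟨y, hy⟩ : ∃ y, polar (plusForm 4 F) (x - a) y ≠ 0 := by
      by_contra hcon
      push Not at hcon
      exact hw0 (hG.nondeg _ hcon)
    obtain ⟨b, hb, hby⟩ := hproj y
    have h1 : polar (plusForm 4 F) (x - a) (y - b) ≠ 0 := by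
      rw [polar_sub_right, polar_comm _ (x - a) b, hax b hb, sub_zero]
      exact hy
    by_contra hcon
    push Not at hcon
    apply h1
    have h2 := hcon (x - a) fun z hz => by rw [polar_comm]; exact hax z hz
    have h3 := hcon (y - b) fun z hz => by rw [polar_comm]; exact hby z hz
    have h4 := hcon (x - a + (y - b)) fun z hz => by
      rw [polar_comm, polar_add_right, hax z hz, hby z hz, add_zero]
    rw [polar, h2, h3, h4, sub_zero, sub_zero]
  -- `A` and `v A` are independent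
  let φ : V8 F →ₗ[F] V8 F :=
    { toFun := fun a => omul v a
      map_add' := fun a b => omul_add v a b
      map_smul' := fun c a => omul_smul c v a }
  have hφ : Function.Injective φ := by
    rw [← LinearMap.ker_eq_bot, eq_bot_iff]
    intro a ha
    have h1 : omul v a = 0 := ha
    have h2 := oconj_omul_omul v a
    rw [h1] at h2
    have h3 : omul (oconj v) (0 : V8 F) = 0 := by
      have := omul_smul (0 : F) (oconj v) (0 : V8 F)
      rwa [zero_smul, zero_smul] at this
    rw [h3] at h2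
    exact (smul_eq_zero.1 h2.symm).resolve_left hv
  have h4 : finrank F A ≤ 4 := by
    have h1 : finrank F (A.map φ) = finrank F A := (Submodule.equivMapOfInjective φ hφ A).finrank_eq.symm
    have h2 : A ⊓ A.map φ = ⊥ := by
      rw [eq_bot_iff]
      rintro x ⟨hx, a, ha, rfl⟩
      refine hnd _ hx fun y hy => ?_
      show polar (plusForm 4 F) (omul v a) y = 0
      rw [polar_omul]
      exact hvA _ (hmA _ hy _ (hcA _ ha))
    have h3 := Submodule.finrank_sup_add_finrank_inf_eq A (A.map φ)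
    rw [h2, finrank_bot, h1] at h3
    have h5 : finrank F (A ⊔ A.map φ : Submodule F (V8 F)) ≤ 8 := by
      refine (Submodule.finrank_le _).trans ?_
      rw [finrank_fintype_fun_eq_card]
      simp
    omega
  have h1 : finrank F A ≠ 0 := by
    intro h
    rw [Submodule.finrank_eq_zero] at h
    rw [h, Submodule.mem_bot] at h1A
    have := congrFun h1A (.inl 0)
    exact one_ne_zero this
  -- parity
  have hev : Even (finrank F A) := by
    obtain ⟨s, hs, -, hsM⟩ := Cfsg.Agent.H675.RC.exists_single M (fun i j => hc i j) hr hinj hM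
    have hsAL : s ∈ AL F := by
      refine (Subgroup.closure_le _).2 ?_ hs
      rintro _ ⟨j, rfl⟩
      exact ⟨hT j, hl j⟩
    obtain ⟨gs, hgs, hgss⟩ := exists_OL hsAL.1 hsAL.2
    have h2 := Cfsg.Agent.H675.RC.even_fix hG (τ := (1 : G8 F)) (g := gs) hgs.nm (fun u w => by
      show gs (omul (oconj u) (oconj w)) = omul (oconj (gs u)) (oconj (gs w))
      rw [hgs.mul, hgss, hgss, hgss, hgss, aut_oconj hsAL.1, aut_oconj hsAL.1])
    have h3 : LinearMap.ker ((gs : V8 F →ₗ[F] V8 F) - 1) = A := by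
      ext x
      rw [LinearMap.mem_ker, LinearMap.sub_apply, sub_eq_zero, hA]
      show gs x = x ↔ _
      rw [hgss]
      constructor
      · intro hx j
        have h4 : M j ∈ Stv x := (Subgroup.zpowers_le (H := Stv x)).2 hx (hsM j)
        exact h4
      · intro hx
        have h4 : s ∈ Stv x := by
          refine (Subgroup.closure_le _).2 ?_ hs
          rintro _ ⟨j, rfl⟩
          exact hx j
        exact h4
    rwa [h3] at h2
  obtain ⟨k, hk⟩ := hev
  omega

end Cfsg.Agent.H547.RC.TriDim
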