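import Cfsg.Agent.H752.SemiNormal
import Cfsg.Agent.H103.RC.FixPair

/-!
# S3510, triality type (i): commuting automorphisms of the octonions over `F₂`, `F₃` fixing an idempotent (helper547)
-/

set_option autoImplicit false
set_option linter.unusedVariables false

namespace Cfsg.Agent.H547.RC.TriLeft

open Module QuadraticMap Cfsg.Agent.LieClassical.OrthCore Cfsg.Agent.LieClassical.OrthTrans
  Cfsg.Agent.LieClassical.OrthSimple Cfsg.Agent.ClassicalGeometry.OrthAut1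
  Cfsg.Agent.ClassicalGeometry.OrthSemi Cfsg.Agent.H198.Classes
  Cfsg.Agent.LieClassical.QuadForms Cfsg.Agent.H198.ClassesPlus
  Cfsg.Agent.ClassicalGeometry.TrialityOct Cfsg.Agent.ClassicalGeometry.Triality
  Cfsg.Agent.ClassicalGeometry.TrialitySpaces Cfsg.Agent.H198.TriBase Cfsg.Agent.H198.TriAut
  Cfsg.Agent.H206.Balance Cfsg.Agent.H198.BalVar Cfsg.Agent.H198.TriDia Cfsg.Agent.H198.TriSpec
  Cfsg.Agent.H752.SemiNormal

universe u

/-- counting fixed points of an element of order `p` -/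
theorem cnt_mod {G X : Type*} [Group G] [MulAction G X] {S : Set X} {g : G} {p : ℕ} (hp : p.Prime) (hg : g ^ p = 1)
    (hS : ∀ v ∈ S, g • v ∈ S) (hfin : S.Finite) : S.ncard ≡ {v | v ∈ S ∧ g • v = v}.ncard [MOD p] := by
  classical
  have := Fact.mk hp
  have := hfin.to_subtype
  have := Fintype.ofFinite S
  let f : Function.End S := fun v => ⟨g • v.1, hS v.1 v.2⟩
  have h1 : ∀ (k : ℕ) (v : S), ((f ^ k) v : X) = g ^ k • (v : X) := by
    intro k
    induction k with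
    | zero => intro v; rw [pow_zero, pow_zero, one_smul]; rfl
    | succ k ih =>
      intro v
      rw [pow_succ', pow_succ']
      show g • ((f ^ k) v : X) = (g * g ^ k) • (v : X)
      rw [ih, mul_smul]
  have h2 : f ^ p ^ 1 = 1 := by
    rw [pow_one]
    funext v
    apply Subtype.ext
    rw [h1, hg, one_smul]
    rfl
  have h3 := Equiv.Perm.card_fixedPoints_modEq h2
  rw [← Nat.card_eq_fintype_card, ← Nat.card_eq_fintype_card] at h3
  have h5 : Nat.card (Function.fixedPoints f) = {v | v ∈ S ∧ g • v = v}.ncard := by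
    rw [← Nat.card_coe_set_eq]
    refine Nat.card_congr ⟨fun v => ⟨v.1.1, v.1.2, congrArg Subtype.val v.2⟩, fun v => ⟨⟨v.1, v.2.1⟩, Subtype.ext v.2.2⟩,
      fun v => rfl, fun v => rfl⟩
  rw [h5] at h3
  exact h3

theorem ari_two {r n : ℕ} (hr : r.Prime) (hr2 : r ≠ 2) (hr3 : r ≠ 3) (hn : n ∣ 8) (hn8 : n ≠ 8) (h : 8 ≡ n [MOD r]) :
    r = 7 := by
  have h2 : r ∣ 8 - n := (Nat.modEq_iff_dvd' (Nat.le_of_dvd (by norm_num) hn)).1 h.symm
  obtain ⟨k, hk, rfl⟩ := (Nat.dvd_prime_pow Nat.prime_two).1 (show n ∣ 2 ^ 3 from hn)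
  interval_cases k
  · exact (Nat.prime_dvd_prime_iff_eq hr (by norm_num)).1 h2
  · have h3 : r ∣ 2 * 3 := h2
    rcases (Nat.Prime.dvd_mul hr).1 h3 with h4 | h4
    · exact absurd ((Nat.prime_dvd_prime_iff_eq hr Nat.prime_two).1 h4) hr2
    · exact absurd ((Nat.prime_dvd_prime_iff_eq hr Nat.prime_three).1 h4) hr3
  · have h3 : r ∣ 2 ^ 2 := h2
    exact absurd ((Nat.prime_dvd_prime_iff_eq hr Nat.prime_two).1 (hr.dvd_of_dvd_pow h3)) hr2
  · exact absurd rfl hn8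

theorem ari_three {r n : ℕ} (hr : r.Prime) (hr3 : r ≠ 3) (hn : n ∣ 27) (hn27 : n ≠ 27) (h : 27 ≡ n [MOD r]) :
    r = 2 ∨ (r = 13 ∧ n = 1) := by
  have h2 : r ∣ 27 - n := (Nat.modEq_iff_dvd' (Nat.le_of_dvd (by norm_num) hn)).1 h.symm
  obtain ⟨k, hk, rfl⟩ := (Nat.dvd_prime_pow Nat.prime_three).1 (show n ∣ 3 ^ 3 from hn)
  interval_cases k
  · have h3 : r ∣ 2 * 13 := h2
    rcases (Nat.Prime.dvd_mul hr).1 h3 with h4 | h4
    · exact Or.inl ((Nat.prime_dvd_prime_iff_eq hr Nat.prime_two).1 h4)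
    · exact Or.inr ⟨(Nat.prime_dvd_prime_iff_eq hr (by norm_num)).1 h4, rfl⟩
  · have h3 : r ∣ 2 ^ 3 * 3 := h2
    rcases (Nat.Prime.dvd_mul hr).1 h3 with h4 | h4
    · exact Or.inl ((Nat.prime_dvd_prime_iff_eq hr Nat.prime_two).1 (hr.dvd_of_dvd_pow h4))
    · exact absurd ((Nat.prime_dvd_prime_iff_eq hr Nat.prime_three).1 h4) hr3
  · have h3 : r ∣ 2 * 3 ^ 2 := h2
    rcases (Nat.Prime.dvd_mul hr).1 h3 with h4 | h4
    · exact Or.inl ((Nat.prime_dvd_prime_iff_eq hr Nat.prime_two).1 h4)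
    · exact absurd ((Nat.prime_dvd_prime_iff_eq hr Nat.prime_three).1 (hr.dvd_of_dvd_pow h4)) hr3
  · exact absurd rfl hn27

variable {F : Type u} [Field F]

/-- the Peirce space of the idempotent `bs (.inl 0)` -/
def LL (F : Type u) [Field F] : AddSubgroup (V8 F) := (Us F).toAddSubgroup

theorem mem_LL {x : V8 F} : x ∈ LL F ↔ x (.inl 0) = 0 ∧ x (.inr 0) = 0 ∧ x (.inr 1) = 0 ∧ x (.inr 2) = 0 ∧
    x (.inr 3) = 0 := mem_Us

theorem mem_LL' {x : V8 F} : x ∈ LL F ↔ omul (bs (.inl 0)) x = x ∧ omul x (bs (.inl 0)) = 0 := Iff.rfl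

theorem card_LL [Finite F] : Nat.card (LL F) = Nat.card F ^ 3 := by
  let f : LL F → (Fin 3 → F) := fun x => ![x.1 (.inl 1), x.1 (.inl 2), x.1 (.inl 3)]
  have hf : Function.Bijective f := by
    constructor
    · rintro ⟨x, hx⟩ ⟨y, hy⟩ hxy
      rw [mem_LL] at hx hy
      have h1 : x (.inl 1) = y (.inl 1) := congrFun hxy 0
      have h2 : x (.inl 2) = y (.inl 2) := congrFun hxy 1
      have h3 : x (.inl 3) = y (.inl 3) := congrFun hxy 2
      apply Subtype.ext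
      apply ext8
      · show x (.inl 0) = y (.inl 0)
        rw [hx.1, hy.1]
      · exact h1
      · exact h2
      · exact h3
      · show x (.inr 0) = y (.inr 0)
        rw [hx.2.1, hy.2.1]
      · show x (.inr 1) = y (.inr 1)
        rw [hx.2.2.1, hy.2.2.1]
      · show x (.inr 2) = y (.inr 2)
        rw [hx.2.2.2.1, hy.2.2.2.1]
      · show x (.inr 3) = y (.inr 3)
        rw [hx.2.2.2.2, hy.2.2.2.2]
    · intro a
      refine ⟨⟨Sum.elim ![0, a 0, a 1, a 2] ![0, 0, 0, 0], mem_LL.2 ⟨rfl, rfl, rfl, rfl, rfl⟩⟩, ?_⟩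
      funext i
      fin_cases i <;> rfl
  rw [Nat.card_congr (Equiv.ofBijective f hf), Nat.card_fun]
  simp

variable {M : G8 F} (hT : TriS M M M) (hs : IsSS (plusForm 4 F) (RingEquiv.refl F) 1 M.1)
  (h0 : M.1 (bs (.inl 0)) = bs (.inl 0))

include hT hs h0 in
theorem stab_LL {x : V8 F} (hx : x ∈ LL F) : M.1 x ∈ LL F := by
  rw [mem_LL'] at hx ⊢
  constructor
  · have h1 := hT (bs (.inl 0)) x
    rw [hx.1, h0] at h1
    exact h1.symm
  · have h1 := hT x (bs (.inl 0))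
    rw [hx.2, h0, hs.map_zero] at h1
    exact h1.symm

/-- fixed vectors -/
def FX (hs : IsSS (plusForm 4 F) (RingEquiv.refl F) 1 M.1) : AddSubgroup (V8 F) where
  carrier := {v | M.1 v = v}
  zero_mem' := hs.map_zero
  add_mem' := fun {a b} ha hb => by
    show M.1 (a + b) = a + b
    rw [hs.add, ha, hb]
  neg_mem' := fun {a} ha => by
    show M.1 (-a) = -a
    rw [← zero_sub, hs.sub, hs.map_zero, ha]

include hT hs h0 in
theorem eq_one_of_LL (h : ∀ x ∈ LL F, M.1 x = x) : M = 1 := by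
  have hb : ∀ i : Fin 4, i ≠ 0 → bs (.inl i) ∈ LL F := by
    intro i hi
    rw [mem_LL]
    refine ⟨?_, rfl, rfl, rfl, rfl⟩
    exact Pi.single_eq_of_ne (fun h1 => hi (by simpa using h1.symm)) 1
  have h1 := eq_fG hT hs h0 (h _ (hb 1 (by decide))) (h _ (hb 2 (by decide))) (h _ (hb 3 (by decide)))
  rw [h1]
  exact Subtype.ext (Equiv.ext fun x => rfl)

theorem card_mod [Finite F] {r : ℕ} (hr : r.Prime) (hM : M ^ r = 1) {K : AddSubgroup (V8 F)} (hK : ∀ x ∈ K, M.1 x ∈ K) :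
    Nat.card K ≡ Nat.card (K ⊓ FX hs : AddSubgroup (V8 F)) [MOD r] := by
  have h1 : (M.1 : Equiv.Perm (V8 F)) ^ r = 1 := by
    rw [← Subgroup.coe_pow, hM]; rfl
  exact cnt_mod hr h1 (S := (K : Set (V8 F))) hK (Set.toFinite _)

include hT h0 in
theorem card_ne [Finite F] (hM : M ≠ 1) : Nat.card (LL F ⊓ FX hs : AddSubgroup (V8 F)) ≠ Nat.card (LL F) := by
  intro h1
  apply hM
  apply eq_one_of_LL hT hs h0
  intro x hx
  have h2 : LL F ⊓ FX hs = LL F := AddSubgroup.eq_of_le_of_card_ge inf_le_left (by rw [h1])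
  rw [← h2] at hx
  exact hx.2

/-- possible prime orders -/
theorem orders [Finite F] (hF : Nat.card F ≤ 3) {M : G8 F} (hT : TriS M M M)
    (hs : IsSS (plusForm 4 F) (RingEquiv.refl F) 1 M.1) (h0 : M.1 (bs (.inl 0)) = bs (.inl 0)) {r : ℕ} (hr : r.Prime)
    (hr3 : r ≠ 3) (hrF : (r : F) ≠ 0) (hM : M ^ r = 1) (hne : M ≠ 1) :
    (Nat.card F = 2 ∧ r = 7) ∨ (Nat.card F = 3 ∧ (r = 2 ∨ (r = 13 ∧ Nat.card (LL F ⊓ FX hs : AddSubgroup (V8 F)) = 1))) := by
  have h1 := card_mod hs hr hM (K := LL F) fun x hx => stab_LL hT hs h0 hx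
  have h2 : Nat.card (LL F ⊓ FX hs : AddSubgroup (V8 F)) ∣ Nat.card (LL F) := AddSubgroup.card_dvd_of_le inf_le_left
  have h3 := card_ne hT hs h0 hne
  rw [card_LL] at h1 h2 h3
  have h4 : 1 < Nat.card F := Finite.one_lt_card
  have h5 : Nat.card F = 2 ∨ Nat.card F = 3 := by omega
  rcases h5 with h5 | h5
  · left
    rw [h5] at h1 h2 h3
    refine ⟨h5, ari_two hr ?_ hr3 h2 h3 h1⟩
    rintro rfl
    apply hrF
    have h6 : ((Nat.card F : ℕ) : F) = 0 := by
      have := Fintype.ofFinite F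
      rw [Nat.card_eq_fintype_card]
      exact Nat.cast_card_eq_zero F
    rwa [h5] at h6
  · right
    rw [h5] at h1 h2 h3
    exact ⟨h5, ari_three hr hr3 h2 h3 h1⟩

/-- orders 2 and 13 do not commute -/
theorem no_two_thirteen [Finite F] (hF : Nat.card F = 3) {u m : G8 F} (hu : TriS u u u)
    (hus : IsSS (plusForm 4 F) (RingEquiv.refl F) 1 u.1) (hu0 : u.1 (bs (.inl 0)) = bs (.inl 0)) (hu2 : u ^ 2 = 1)
    (hu1 : u ≠ 1) (hm : TriS m m m) (hms : IsSS (plusForm 4 F) (RingEquiv.refl F) 1 m.1)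
    (hm0 : m.1 (bs (.inl 0)) = bs (.inl 0)) (hm13 : m ^ 13 = 1)
    (hcard : Nat.card (LL F ⊓ FX hms : AddSubgroup (V8 F)) = 1) (hc : u * m = m * u) (h2 : (2 : F) ≠ 0) : False := by
  have h1 : ∀ x, u.1 (m.1 x) = m.1 (u.1 x) := fun x =>
    congrArg (fun g : G8 F => g.1 x) hc
  have h3 := card_mod hms (K := LL F ⊓ FX hus) (by norm_num : Nat.Prime 13) hm13 fun x hx =>
    ⟨stab_LL hm hms hm0 hx.1, by
      show u.1 (m.1 x) = m.1 x
      rw [h1, show u.1 x = x from hx.2]⟩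
  have h4 : Nat.card (LL F ⊓ FX hus ⊓ FX hms : AddSubgroup (V8 F)) = 1 := by
    have h5 : Nat.card (LL F ⊓ FX hus ⊓ FX hms : AddSubgroup (V8 F)) ∣ Nat.card (LL F ⊓ FX hms : AddSubgroup (V8 F)) :=
      AddSubgroup.card_dvd_of_le (inf_le_inf_right _ inf_le_left)
    rw [hcard] at h5
    exact Nat.dvd_one.1 h5
  have h5 : Nat.card (LL F ⊓ FX hus : AddSubgroup (V8 F)) ∣ Nat.card (LL F) := AddSubgroup.card_dvd_of_le inf_le_left
  have h6 := card_ne hu hus hu0 hu1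
  rw [card_LL, hF] at h5 h6
  rw [h4] at h3
  have h7 : Nat.card (LL F ⊓ FX hus : AddSubgroup (V8 F)) = 1 := by
    generalize Nat.card (LL F ⊓ FX hus : AddSubgroup (V8 F)) = n at h3 h5 h6
    obtain ⟨k, hk, rfl⟩ := (Nat.dvd_prime_pow Nat.prime_three).1 h5
    interval_cases k
    · rfl
    · exact absurd h3 (by decide)
    · exact absurd h3 (by decide)
    · exact absurd rfl h6
  rw [AddSubgroup.card_eq_one] at h7
  have huu : ∀ x, u.1 (u.1 x) = x := fun x => by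
    have := congrArg (fun g : G8 F => g.1 x) hu2
    rw [pow_two] at this
    exact this
  have hneg : ∀ x ∈ LL F, u.1 x = -x := by
    intro x hx
    have h8 : u.1 x + x ∈ LL F ⊓ FX hus := by
      refine ⟨(LL F).add_mem (stab_LL hu hus hu0 hx) hx, ?_⟩
      show u.1 (u.1 x + x) = u.1 x + x
      rw [hus.add, huu, add_comm]
    rw [h7, AddSubgroup.mem_bot] at h8
    exact eq_neg_of_add_eq_zero_left h8
  have hb : ∀ i : Fin 4, i ≠ 0 → bs (.inl i) ∈ LL F := by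
    intro i hi
    rw [mem_LL]
    refine ⟨?_, rfl, rfl, rfl, rfl⟩
    exact Pi.single_eq_of_ne (fun h1 => hi (by simpa using h1.symm)) 1
  have h8 := hneg _ (hb 1 (by decide))
  have h9 := hneg _ (hb 2 (by decide))
  have h10 := hneg _ (hb 3 (by decide))
  have hnn : ∀ x : V8 F, -x = (-1 : F) • x := fun x => by rw [neg_smul, one_smul]
  have h11 : u.1 (bs (.inr 3)) = bs (.inr 3) := by
    rw [bs_r3, hus.smul, hu, h8, h9, hnn, hnn (bs (.inl 2)), smul_omul, omul_smul, smul_smul, smul_smul]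
    norm_num
  have h12 : (polar (plusForm 4 F) (bs (.inl 3)) (bs (.inr 3)) : F) = 1 := by
    rw [polar8]; simp
  have h13 := hus.polar (bs (.inl 3)) (bs (.inr 3))
  rw [h10, h11, h12, hnn, QuadraticMap.polar_smul_left, h12, RingEquiv.refl_apply, mul_one] at h13
  apply h2
  have h14 : (-1 : F) = 1 := by simpa using h13
  linear_combination -h14

/-- **`r` takes one value** (box P2 of helper566) -/
theorem sub_of_left [Finite F] (hF : Nat.card F ≤ 3) {κ : Type*} (M : κ → G8 F) (r : κ → ℕ)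
    (hT : ∀ j, TriS (M j) (M j) (M j)) (hl : ∀ j, IsLin (M j)) (hr : ∀ j, (r j).Prime) (hr3 : ∀ j, r j ≠ 3)
    (hrF : ∀ j, ((r j : ℕ) : F) ≠ 0) (hpow : ∀ j, M j ^ r j = 1) (hne : ∀ j, M j ≠ 1) (hinj : Function.Injective r)
    (hc : ∀ i j, M i * M j = M j * M i) {e : V8 F} (he : ∀ j, (M j).1 e = e) (hee : omul e e = e)
    (hQe : plusForm 4 F e = 0) (h1 : polar (plusForm 4 F) e (one8 F) = 1)
    (hfix : ∀ v, (∀ j, (M j).1 v = v) → ∃ a c : F, v = a • one8 F + c • e) : Subsingleton κ := by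
  have hse : ∀ j, IsSS (plusForm 4 F) (RingEquiv.refl F) 1 (M j).1 := fun j => Cfsg.Agent.H103.RC.aut_ss (hT j) (hl j)
  have h3 : e (.inl 0) + e (.inr 0) = 1 := by
    rw [polar8] at h1
    simpa [one8] using h1
  obtain ⟨P, hP, hPs, hPe⟩ := exists_aut h3 hQe
  have hPe' : P.1 e = bs (.inl 0) := hPe
  let W : κ → G8 F := fun j => P * M j * P⁻¹
  have hWT : ∀ j, TriS (W j) (W j) (W j) := fun j => (hP.mul (hT j)).mul hP.inv
  have hWl : ∀ j, IsLin (W j) := fun j => by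
    have h4 := (hPs.mul (hse j)).mul hPs.inv
    exact ⟨_, h4⟩
  have hWs : ∀ j, IsSS (plusForm 4 F) (RingEquiv.refl F) 1 (W j).1 := fun j =>
    Cfsg.Agent.H103.RC.aut_ss (hWT j) (hWl j)
  have hW0 : ∀ j, (W j).1 (bs (.inl 0)) = bs (.inl 0) := by
    intro j
    show P.1 ((M j).1 (P.1⁻¹ (bs (.inl 0)))) = bs (.inl 0)
    have h4 : P.1⁻¹ (bs (.inl 0)) = e := by rw [← hPe', inv_apply]
    rw [h4, he, hPe']
  have hWpow : ∀ j, W j ^ r j = 1 := fun j => by
    show (P * M j * P⁻¹) ^ r j = 1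
    rw [conj_pow, hpow, mul_one, mul_inv_cancel]
  have hWne : ∀ j, W j ≠ 1 := fun j h4 => hne j (by
    have h5 : P * M j * P⁻¹ = 1 := h4
    rw [mul_inv_eq_one] at h5
    exact mul_eq_left.1 h5)
  have hWc : ∀ i j, W i * W j = W j * W i := fun i j => by
    show P * M i * P⁻¹ * (P * M j * P⁻¹) = P * M j * P⁻¹ * (P * M i * P⁻¹)
    have h4 : ∀ a b : G8 F, P * a * P⁻¹ * (P * b * P⁻¹) = P * (a * b) * P⁻¹ := fun a b => by group
    rw [h4, h4, hc]
  have hord := fun j => orders hF (hWT j) (hWs j) (hW0 j) (hr j) (hr3 j) (hrF j) (hWpow j) (hWne j)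
  have no213 : ∀ i j, r i = 2 → r j = 13 → False := by
    intro i j hi hj
    rcases hord j with h4 | ⟨hF3, h4 | ⟨-, h4⟩⟩
    · omega
    · omega
    · have h5 := hWpow i
      have h6 := hWpow j
      rw [hi] at h5
      rw [hj] at h6
      exact no_two_thirteen hF3 (hWT i) (hWs i) (hW0 i) h5 (hWne i) (hWT j) (hWs j) (hW0 j) h6 h4 (hWc i j) (by
        have h7 := hrF i
        rw [hi] at h7
        exact_mod_cast h7)
  constructor
  intro i j
  apply hinj
  rcases hord i with ⟨h4, h5⟩ | ⟨h4, h5 | ⟨h5, -⟩⟩ <;> rcases hord j with ⟨h6, h7⟩ | ⟨h6, h7 | ⟨h7, -⟩⟩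
  · omega
  · omega
  · omega
  · omega
  · omega
  · exact (no213 i j h5 h7).elim
  · omega
  · exact (no213 j i h7 h5).elim
  · omega

end Cfsg.Agent.H547.RC.TriLeft
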